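import Cfsg.Agent.Lib.SyR.Red
import Cfsg.Agent.S0713

/-! One `p`-cycle with at least three fixed points: the alternating group acts. -/

set_option autoImplicit false
open Pointwise
open scoped Classical

namespace Cfsg.Lib.SyR

universe u

variable {G : Type u} [Group G] [Finite G] {Ω : Type u} [MulAction G Ω] [Fintype Ω] {p : ℕ}
  [hp : Fact p.Prime]

/-- The action of `K` on one of its orbits. -/
@[reducible] noncomputable def actO (K : Subgroup G) (α : Ω) : MulAction K (orb K α) where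
  smul g δ := ⟨(g : G) • (δ : Ω), orb_inv K α g g.2 δ δ.2⟩
  one_smul δ := Subtype.ext (one_smul G (δ : Ω))
  mul_smul g h δ := Subtype.ext (mul_smul (g : G) (h : G) (δ : Ω))

/-- The permutation representation of `K` on one of its orbits. -/
noncomputable def rho (K : Subgroup G) (α : Ω) : K →* Equiv.Perm (orb K α) :=
  @MulAction.toPermHom K (orb K α) _ (actO K α)

omit [Finite G] in
theorem rho_apply (K : Subgroup G) (α : Ω) (g : K) (δ : orb K α) :
    (rho K α g δ : Ω) = (g : G) • (δ : Ω) := rfl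

theorem alt_zp {P : Subgroup G} (hP : Nat.card P = p) {x : G} (hx : x ∈ P) (h1 : x ≠ 1) :
    Subgroup.zpowers x = P := by
  have hle : Subgroup.zpowers x ≤ P := Subgroup.zpowers_le.2 hx
  refine Subgroup.eq_of_le_of_card_ge hle ?_
  have h2 := Subgroup.card_dvd_of_le hle
  rw [hP] at h2 ⊢
  rcases (Nat.dvd_prime hp.out).1 h2 with h | h
  · rw [Nat.card_zpowers, orderOf_eq_one_iff] at h
    exact absurd h h1
  · exact h.ge

omit [Finite G] hp in
theorem alt_pow {P : Subgroup G} (hP : Nat.card P = p) {x : G} (hx : x ∈ P) : x ^ p = 1 := by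
  have := pow_card_eq_one' (x := (⟨x, hx⟩ : P))
  rw [hP] at this
  exact congrArg Subtype.val this

theorem alt_le_range (hq : ∀ P : Sylow p G, Nat.card P = p) {K : Subgroup G} (hK : Good p K)
    {P : Sylow p G} (hP : (P : Subgroup G) ≤ K) {α : Ω} (hs : ns (P : Subgroup G) (orb K α) = p)
    (hf : 3 ≤ nf (P : Subgroup G) (orb K α)) :
    alternatingGroup (orb K α) ≤ (rho K α).range := by
  have hne : (A p K α).Nonempty := (A_nonempty_iff hP).2 (by omega)
  have hr := t1_red hq hK hP hne hs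
  have h2 : MulAction.IsMultiplyPretransitive (rho K α).range (orb K α) 2 := by
    rw [MulAction.is_two_pretransitive_iff]
    intro a b c d hab hcd
    obtain ⟨g, hg, e⟩ := exists_smul_of_mem_orb a.2 c.2
    have h1 : g • (b : Ω) ∈ (orb K α).erase c := Finset.mem_erase.2 ⟨fun h => hab (Subtype.ext
      (MulAction.injective g (e.trans h.symm))), orb_inv K α g hg _ b.2⟩
    have h3 : (d : Ω) ∈ orb (St p K (c : Ω)) (g • (b : Ω)) := by
      rw [t1_orb hq hP hr hs c.2 h1]
      exact Finset.mem_erase.2 ⟨fun h => hcd (Subtype.ext h.symm), d.2⟩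
    obtain ⟨h, hh, e'⟩ := mem_orb.1 h3
    refine ⟨⟨rho K α ⟨h * g, K.mul_mem (St_le K _ hh) hg⟩, _, rfl⟩, Subtype.ext ?_, Subtype.ext ?_⟩
    · change (h * g) • (a : Ω) = c
      rw [mul_smul, e, St_fx K _ h hh]
    · change (h * g) • (b : Ω) = d
      rw [mul_smul, e']
  have hcard : Fintype.card (orb K α) = nf (P : Subgroup G) (orb K α) + p := by
    rw [Fintype.card_coe, ← nf_add_ns (P : Subgroup G), hs]
  haveI : Nontrivial (P : Subgroup G) := Finite.one_lt_card_iff_nontrivial.1 (by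
    rw [hq P]; exact hp.out.one_lt)
  obtain ⟨⟨x, hx⟩, hx1⟩ := exists_ne (1 : (P : Subgroup G))
  have hx1' : x ≠ 1 := fun h => hx1 (Subtype.ext h)
  have hfx : ∀ γ : Ω, x • γ = γ ↔ Fx (P : Subgroup G) γ := fun γ => by
    rw [← alt_zp (hq P) hx hx1', Fx_iff_le, Subgroup.zpowers_le]; rfl
  have hsupp : (rho K α ⟨x, hP hx⟩).support.card = p := by
    rw [← hs, ns]
    refine Finset.card_bij (fun δ _ => (δ : Ω)) ?_ ?_ ?_
    · intro δ hδ
      rw [Equiv.Perm.mem_support] at hδ
      exact Finset.mem_filter.2 ⟨δ.2, fun h => hδ (Subtype.ext ((hfx _).2 h))⟩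
    · intro a _ b _ h; exact Subtype.ext h
    · intro δ hδ
      rw [Finset.mem_filter] at hδ
      exact ⟨⟨δ, hδ.1⟩, Equiv.Perm.mem_support.2 fun h =>
        hδ.2 ((hfx _).1 (congrArg Subtype.val h)), rfl⟩
  have hord : orderOf (rho K α ⟨x, hP hx⟩) = p := by
    refine orderOf_eq_prime ?_ fun h => ?_
    · rw [← map_pow]
      have : (⟨x, hP hx⟩ : K) ^ p = 1 := Subtype.ext (alt_pow (hq P) hx)
      rw [this, map_one]
    · rw [h, Equiv.Perm.support_one, Finset.card_empty] at hsupp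
      exact hp.out.ne_zero hsupp.symm
  have h2p := hp.out.two_le
  refine Cfsg.Agent.S0713.result _ (MulAction.isPreprimitive_of_is_two_pretransitive h2) hp.out
    (by omega) (by omega) (Equiv.Perm.isCycle_of_prime_order (hord ▸ hp.out) ?_) hsupp ⟨_, rfl⟩
  rw [hord, hsupp]
  omega

/-- Jordan.  Let `ρ : K →* Perm O` (`O = orb K α` as a subtype) and `R = ρ.range`.  `R` is 2-transitive
(`t1_red`, `t1_orb`: `St K β` is transitive on `O.erase β`), hence primitive; a generator `x` of `P` acts as a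
`p`-cycle (its support is the set of points moved by `P`, one `P`-orbit by `card_orb_prime`); S0713. -/
theorem alt_le (hq : ∀ P : Sylow p G, Nat.card P = p) {K : Subgroup G} (hK : Good p K)
    {P : Sylow p G} (hP : (P : Subgroup G) ≤ K) {α : Ω} (hs : ns (P : Subgroup G) (orb K α) = p)
    (hf : 3 ≤ nf (P : Subgroup G) (orb K α)) (σ : Equiv.Perm (orb K α))
    (hσ : Equiv.Perm.sign σ = 1) : ∃ g ∈ K, ∀ δ : orb K α, g • (δ : Ω) = σ δ := by
  obtain ⟨g, hg⟩ := alt_le_range hq hK hP hs hf (Equiv.Perm.mem_alternatingGroup.2 hσ)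
  exact ⟨g, g.2, fun δ => by rw [← hg, rho_apply]⟩

theorem alt_le' (hq : ∀ P : Sylow p G, Nat.card P = p) {K : Subgroup G} (hK : Good p K)
    {P : Sylow p G} (hP : (P : Subgroup G) ≤ K) {α : Ω} {O : Finset Ω} (ho : orb K α = O)
    (hs : ns (P : Subgroup G) O = p) (hf : 3 ≤ nf (P : Subgroup G) O) (σ : Equiv.Perm O)
    (hσ : Equiv.Perm.sign σ = 1) : ∃ g ∈ K, ∀ δ : O, g • (δ : Ω) = σ δ := by
  subst ho
  exact alt_le hq hK hP hs hf σ hσ

theorem alt_sign (hq : ∀ P : Sylow p G, Nat.card P = p) (h3 : 3 ≤ p) {K : Subgroup G}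
    (hK : Good p K) (α : Ω) (g : K) : Equiv.Perm.sign (rho K α g) = 1 := by
  have : gen (X p K) ≤ (Equiv.Perm.sign.comp (rho K α)).ker.map K.subtype := by
    refine gen_le.2 fun Q hQ x hx => ⟨⟨x, hQ hx⟩, ?_, rfl⟩
    have h1 : (⟨x, hQ hx⟩ : K) ^ p = 1 := Subtype.ext (alt_pow (hq Q) hx)
    have h2 := congrArg (Equiv.Perm.sign.comp (rho K α)) h1
    rw [map_pow, map_one] at h2
    rcases Int.units_eq_one_or (Equiv.Perm.sign.comp (rho K α) ⟨x, hQ hx⟩) with h | h
    · exact h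
    · rw [h, (hp.out.odd_of_ne_two (by omega)).neg_one_pow] at h2
      exact absurd h2 (by decide)
  obtain ⟨y, hy, e⟩ := this (hK g.2)
  obtain rfl : y = g := Subtype.ext e
  exact hy

/-- Every element of `K` acts as an even permutation (`K` is generated by elements of odd order `p`), so by
`alt_le` a good subgroup `H ≤ K` transitive on `O` induces all that `K` induces. -/
theorem alt_sub (hq : ∀ P : Sylow p G, Nat.card P = p) (h3 : 3 ≤ p) {K H : Subgroup G}
    (hK : Good p K) (hH : Good p H) (hHK : H ≤ K)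
    {P : Sylow p G} (hP : (P : Subgroup G) ≤ H) {α : Ω} (hs : ns (P : Subgroup G) (orb K α) = p)
    (hf : 3 ≤ nf (P : Subgroup G) (orb K α)) (ho : orb H α = orb K α) (g : G) (hg : g ∈ K) :
    ∃ h ∈ H, ∀ δ ∈ orb K α, h • δ = g • δ := by
  obtain ⟨h, hh, e⟩ := alt_le' hq hH hP ho hs hf (rho K α ⟨g, hg⟩) (alt_sign hq h3 hK α _)
  exact ⟨h, hh, fun δ hδ => e ⟨δ, hδ⟩⟩

/-- `K` is transitive on the `z`-subsets of `O`, `z ≥ 2` (extend a bijection to a permutation of `O`, correct
the sign by a swap inside `Z₁`). -/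
theorem alt_subsets (hq : ∀ P : Sylow p G, Nat.card P = p) {K : Subgroup G} (hK : Good p K)
    {P : Sylow p G} (hP : (P : Subgroup G) ≤ K) {α : Ω} (hs : ns (P : Subgroup G) (orb K α) = p)
    (hf : 3 ≤ nf (P : Subgroup G) (orb K α)) {Z₁ Z₂ : Finset Ω} (h₁ : Z₁ ⊆ orb K α)
    (h₂ : Z₂ ⊆ orb K α) (hc : Z₁.card = Z₂.card) (h2 : 2 ≤ Z₁.card) :
    ∃ g ∈ K, Z₁.image (g • ·) = Z₂ := by
  have c1 : ∀ Z ⊆ orb K α, (Z.subtype (· ∈ orb K α)).card = Z.card := fun Z hZ => by
    rw [Finset.card_subtype, Finset.filter_true_of_mem hZ]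
  obtain ⟨σ, hσ, hsg⟩ : ∃ σ : Equiv.Perm (orb K α), (∀ δ : orb K α, (δ : Ω) ∈ Z₁ → (σ δ : Ω) ∈ Z₂) ∧
      Equiv.Perm.sign σ = 1 := by
    obtain ⟨σ, hσ⟩ := Equiv.Perm.exists_map_finset_eq (Z₁.subtype (· ∈ orb K α))
      (Z₂.subtype (· ∈ orb K α)) (by rw [c1 _ h₁, c1 _ h₂, hc])
    have h1 : ∀ δ : orb K α, (δ : Ω) ∈ Z₁ → (σ δ : Ω) ∈ Z₂ := fun δ hδ => by
      rw [← Finset.mem_subtype (p := (· ∈ orb K α)), ← hσ]
      exact Finset.mem_map_of_mem _ (Finset.mem_subtype.2 hδ)
    rcases Int.units_eq_one_or (Equiv.Perm.sign σ) with h | h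
    · exact ⟨σ, h1, h⟩
    · obtain ⟨a, ha, b, hb, hab⟩ := Finset.one_lt_card.1 h2
      refine ⟨σ * Equiv.swap ⟨a, h₁ ha⟩ ⟨b, h₁ hb⟩, fun δ hδ => h1 _ ?_, ?_⟩
      · rw [Equiv.swap_apply_def]
        split_ifs
        exacts [hb, ha, hδ]
      · rw [map_mul, h, Equiv.Perm.sign_swap fun e => hab (congrArg Subtype.val e)]
        rfl
  obtain ⟨g, hg, e⟩ := alt_le hq hK hP hs hf σ hsg
  refine ⟨g, hg, Finset.eq_of_subset_of_card_le (fun δ hδ => ?_) ?_⟩
  · obtain ⟨ε, hε, rfl⟩ := Finset.mem_image.1 hδ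
    have := e ⟨ε, h₁ hε⟩
    exact this ▸ hσ ⟨ε, h₁ hε⟩ hε
  · rw [Finset.card_image_of_injective _ (MulAction.injective g), hc]

/-- Any nontrivial orbit `V` of `K` has at least `m = |O|` points.  Let `N ⊴ K` be the kernel on `V`; it
contains no Sylow subgroup (`ns_pos`), so `p ∤ |N|`.  `ρ(N) ⊓ A_m` is normal in the simple group `A_m ≤ ρ(K)`; it is
not `A_m` (order divisible by `p`), so trivial; `|A_m| ≤ |K : N| ≤ |V|!`, and `m!/2 > (m-1)!`. -/
theorem alt_card_le (hq : ∀ P : Sylow p G, Nat.card P = p) {K : Subgroup G} (hK : Good p K)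
    {P : Sylow p G} (hP : (P : Subgroup G) ≤ K) {α : Ω} (hs : ns (P : Subgroup G) (orb K α) = p)
    (hf : 3 ≤ nf (P : Subgroup G) (orb K α)) {Ω' : Type u} [MulAction G Ω'] [Fintype Ω'] {γ : Ω'}
    (hγ : ¬ Fx K γ) : (orb K α).card ≤ (orb K γ).card := by
  have hA := alt_le_range hq hK hP hs hf
  have hm : (orb K α).card = nf (P : Subgroup G) (orb K α) + p := by
    rw [← nf_add_ns (P : Subgroup G), hs]
  have h2p := hp.out.two_le
  have hc : Nat.card (orb K α) = (orb K α).card := by simp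
  haveI : Nontrivial (orb K α) := Finite.one_lt_card_iff_nontrivial.1 (by omega)
  have hcA : 2 * Nat.card (alternatingGroup (orb K α)) = (orb K α).card.factorial := by
    rw [two_mul_nat_card_alternatingGroup, Nat.card_perm, hc]
  let N := (rho K γ).ker
  haveI : ((N.map (rho K α)).subgroupOf (alternatingGroup (orb K α))).Normal := ⟨by
    rintro ⟨_, hn⟩ ⟨n, hnN, rfl⟩ ⟨a, ha⟩
    obtain ⟨k, rfl⟩ := hA ha
    exact ⟨k * n * k⁻¹, (MonoidHom.normal_ker _).conj_mem n hnN k, by simp⟩⟩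
  rcases alternatingGroup.normal_subgroup_eq_bot_or_eq_top (α := orb K α) (by omega)
    (N := (N.map (rho K α)).subgroupOf (alternatingGroup (orb K α))) with h | h
  · choose k hk using fun a : alternatingGroup (orb K α) => hA a.2
    have h1 : Nat.card (alternatingGroup (orb K α)) ≤ Nat.card (Equiv.Perm (orb K γ)) := by
      refine Nat.card_le_card_of_injective (fun a => rho K γ (k a)) fun a b e => ?_
      have : a⁻¹ * b ∈ (N.map (rho K α)).subgroupOf (alternatingGroup (orb K α)) := by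
        refine ⟨(k a)⁻¹ * k b, ?_, by simp [hk]⟩
        change rho K γ ((k a)⁻¹ * k b) = 1
        rw [map_mul, map_inv, inv_mul_eq_one]
        exact e
      rw [h, Subgroup.mem_bot, inv_mul_eq_one] at this
      exact this
    rw [Nat.card_perm, Nat.card_eq_fintype_card (α := orb K γ), Fintype.card_coe] at h1
    by_contra hlt
    obtain ⟨m, hm'⟩ : ∃ m, (orb K α).card = m + 1 := ⟨(orb K α).card - 1, by omega⟩
    have h3 : (orb K γ).card.factorial ≤ m.factorial := Nat.factorial_le (by omega)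
    rw [hm', Nat.factorial_succ] at hcA
    have h4 := Nat.factorial_pos m
    have h5 : 3 * m.factorial ≤ (m + 1) * m.factorial := Nat.mul_le_mul_right _ (by omega)
    omega
  · exfalso
    have h1 : p ∣ Nat.card (alternatingGroup (orb K α)) := by
      refine Nat.dvd_of_mul_dvd_mul_left two_pos ?_
      rw [hcA]
      refine Dvd.dvd.trans ?_ (Nat.factorial_dvd_factorial (by omega : p + 2 ≤ (orb K α).card))
      rw [Nat.factorial_succ, Nat.factorial_succ, ← mul_assoc]
      refine mul_dvd_mul ?_ (Nat.dvd_factorial hp.out.pos le_rfl)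
      rw [mul_comm]
      exact (Nat.even_mul_succ_self (p + 1)).two_dvd
    have h2 : p ∣ Nat.card N :=
      (h1.trans (Subgroup.card_dvd_of_le (Subgroup.subgroupOf_eq_top.1 h))).trans
        (Subgroup.card_map_dvd _ _)
    obtain ⟨y, hy⟩ := exists_prime_orderOf_dvd_card' p h2
    have hy' : orderOf ((y : K) : G) = p := by
      rw [Subgroup.orderOf_coe, Subgroup.orderOf_coe, hy]
    obtain ⟨Q, hQ⟩ := (IsPGroup.of_card (p := p) (G := Subgroup.zpowers ((y : K) : G)) (n := 1)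
      (by rw [Nat.card_zpowers, hy', pow_one])).exists_le_sylow
    have h3 := alt_zp (hq Q) (hQ (Subgroup.mem_zpowers _)) fun h => by
      rw [h, orderOf_one] at hy'; omega
    have h4 : (Q : Subgroup G) ≤ K := by rw [← h3, Subgroup.zpowers_le]; exact (y : K).2
    obtain ⟨δ, hδ, h5⟩ := ns_pos_iff.1 (ns_pos hK h4 hγ)
    apply h5
    rw [← h3, Fx_iff_le, Subgroup.zpowers_le]
    have h6 : rho K γ y = 1 := y.2
    have := rho_apply K γ y ⟨δ, hδ⟩
    rw [h6] at this
    exact this.symm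

end Cfsg.Lib.SyR
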