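import Cfsg.Agent.Lib.SyR.Def

/-! Basic lemmas for the Sylow ratio theorem. -/

set_option autoImplicit false
open Pointwise
open scoped Classical

namespace Cfsg.Lib.SyR

universe u
variable {G : Type u} [Group G] {Ω : Type u} [MulAction G Ω] {p : ℕ}

theorem mem_smul_sylow (g : G) (P : Sylow p G) (x : G) :
    x ∈ ((g • P : Sylow p G) : Subgroup G) ↔ g⁻¹ * x * g ∈ (P : Subgroup G) := by
  rw [Sylow.coe_subgroup_smul, Subgroup.mem_pointwise_smul_iff_inv_smul_mem]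
  simp

theorem conj [Finite G] [Fact p.Prime] {K : Subgroup G} {P Q : Sylow p G}
    (hP : (P : Subgroup G) ≤ K) (hQ : (Q : Subgroup G) ≤ K) : ∃ g ∈ K, g • P = Q := by
  obtain ⟨g, hg⟩ := MulAction.exists_smul_eq K (P.subtype hP) (Q.subtype hQ)
  refine ⟨g, g.2, ?_⟩
  rw [Sylow.smul_subtype] at hg
  exact Sylow.subtype_injective hg

theorem Fx_smul (g : G) (P : Sylow p G) (γ : Ω) :
    Fx ((g • P : Sylow p G) : Subgroup G) (g • γ) ↔ Fx (P : Subgroup G) γ := by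
  constructor
  · intro h x hx
    have := h (g * x * g⁻¹) ((mem_smul_sylow g P _).2 (by simpa [mul_assoc] using hx))
    rw [mul_smul, mul_smul, inv_smul_smul] at this
    exact MulAction.injective g this
  · intro h x hx
    have := h _ ((mem_smul_sylow g P x).1 hx)
    rw [mul_smul, mul_smul, inv_smul_eq_iff] at this
    exact this

theorem smul_le {K : Subgroup G} {g : G} (hg : g ∈ K) (P : Sylow p G) :
    ((g • P : Sylow p G) : Subgroup G) ≤ K ↔ (P : Subgroup G) ≤ K := by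
  constructor
  · intro h x hx
    have := h ((mem_smul_sylow g P (g * x * g⁻¹)).2 (by simpa [mul_assoc] using hx))
    have h2 := K.mul_mem (K.mul_mem (K.inv_mem hg) this) hg
    simpa [mul_assoc] using h2
  · intro h x hx
    have := h ((mem_smul_sylow g P x).1 hx)
    have h2 := K.mul_mem (K.mul_mem hg this) (K.inv_mem hg)
    simpa [mul_assoc] using h2

theorem A_smul {K : Subgroup G} {g : G} (hg : g ∈ K) (γ : Ω) :
    A p K (g • γ) = g • A p K γ := by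
  ext Q
  rw [Set.mem_smul_set_iff_inv_smul_mem]
  simp only [A, Set.mem_setOf_eq]
  rw [smul_le (K.inv_mem hg), ← Fx_smul g (g⁻¹ • Q) γ, smul_inv_smul]

theorem Fx.mono {P Q : Subgroup G} (h : P ≤ Q) {γ : Ω} (hγ : Fx Q γ) : Fx P γ :=
  fun x hx => hγ x (h hx)

theorem Fx_iff_le {P : Subgroup G} {γ : Ω} : Fx P γ ↔ P ≤ MulAction.stabilizer G γ := Iff.rfl

theorem le_gen {S : Set (Sylow p G)} {Q : Sylow p G} (h : Q ∈ S) : (Q : Subgroup G) ≤ gen S :=
  le_iSup₂_of_le (f := fun (Q : Sylow p G) (_ : Q ∈ S) => (Q : Subgroup G)) Q h le_rfl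

theorem gen_le {S : Set (Sylow p G)} {K : Subgroup G} :
    gen S ≤ K ↔ ∀ Q ∈ S, (Q : Subgroup G) ≤ K := iSup₂_le_iff

theorem Fx_gen {S : Set (Sylow p G)} {γ : Ω} :
    Fx (gen S) γ ↔ ∀ Q ∈ S, Fx (Q : Subgroup G) γ := by
  rw [Fx_iff_le, gen_le]; rfl

theorem good_gen (S : Set (Sylow p G)) : Good p (gen S) :=
  gen_le.2 fun _ hQ => le_gen (le_gen hQ)

theorem St_le (K : Subgroup G) (γ : Ω) : St p K γ ≤ K := gen_le.2 fun _ h => h.1

theorem St_good (K : Subgroup G) (γ : Ω) : Good p (St p K γ) := good_gen _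

theorem St_fx (K : Subgroup G) (γ : Ω) : Fx (St p K γ) γ := Fx_gen.2 fun _ h => h.2

theorem le_St {K : Subgroup G} {γ : Ω} {Q : Sylow p G} :
    (Q : Subgroup G) ≤ St p K γ ↔ Q ∈ A p K γ :=
  ⟨fun h => ⟨h.trans (St_le K γ), (St_fx K γ).mono h⟩, fun h => le_gen h⟩

theorem X_St (K : Subgroup G) (γ : Ω) : X p (St p K γ) = A p K γ := by
  ext Q; exact le_St

theorem A_St {Ω' : Type u} [MulAction G Ω'] (K : Subgroup G) (α : Ω) (γ : Ω') :
    A p (St p K α) γ = A p K α ∩ A p K γ := by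
  ext Q
  exact ⟨fun h => ⟨le_St.1 h.1, h.1.trans (St_le K α), h.2⟩, fun h => ⟨le_St.2 h.1, h.2.2⟩⟩

theorem Fx_St {Ω' : Type u} [MulAction G Ω'] {K : Subgroup G} {α : Ω} {γ : Ω'} :
    Fx (St p K α) γ ↔ A p K α ⊆ A p K γ := by
  rw [St, Fx_gen]
  exact ⟨fun h Q hQ => ⟨hQ.1, h Q hQ⟩, fun h Q hQ => (h hQ).2⟩

theorem Inv.mono {K L : Subgroup G} (h : L ≤ K) {O : Finset Ω} (hO : Inv K O) : Inv L O :=
  fun g hg => hO g (h hg)

theorem Inv.sdiff {K : Subgroup G} {O U : Finset Ω} (hO : Inv K O) (hU : Inv K U) :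
    Inv K (O \ U) := by
  intro g hg γ hγ
  rw [Finset.mem_sdiff] at hγ ⊢
  refine ⟨hO g hg γ hγ.1, fun h => hγ.2 ?_⟩
  simpa using hU g⁻¹ (K.inv_mem hg) _ h

theorem Inv.erase {K : Subgroup G} {O : Finset Ω} (hO : Inv K O) {α : Ω} (hα : Fx K α) :
    Inv K (O.erase α) := by
  rw [← Finset.sdiff_singleton_eq_erase]
  refine hO.sdiff fun g hg γ hγ => ?_
  rw [Finset.mem_singleton] at hγ ⊢
  rw [hγ, hα g hg]

theorem nf_add_ns (P : Subgroup G) (O : Finset Ω) : nf P O + ns P O = O.card :=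
  Finset.card_filter_add_card_filter_not _

/-- The weight of a point. -/
noncomputable def wt (a b : ℤ) (P : Subgroup G) (γ : Ω) : ℤ := if Fx P γ then a else b

theorem sum_wt (a b : ℤ) (P : Subgroup G) (O : Finset Ω) :
    ∑ γ ∈ O, wt a b P γ = a * nf P O + b * ns P O := by
  simp only [wt, Finset.sum_ite, Finset.sum_const, nsmul_eq_mul, nf, ns]
  ring

theorem ee_eq (P : Subgroup G) (O : Finset Ω) :
    ee p P O = ∑ γ ∈ O, wt (-p) (p - 1) P γ := by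
  rw [sum_wt, ee]; ring

theorem nf_sdiff (P : Subgroup G) {O U : Finset Ω} (h : U ⊆ O) :
    nf P (O \ U) + nf P U = nf P O := by
  have := Finset.sum_sdiff (f := wt 1 0 P) h
  simp only [sum_wt] at this
  omega

theorem ns_sdiff (P : Subgroup G) {O U : Finset Ω} (h : U ⊆ O) :
    ns P (O \ U) + ns P U = ns P O := by
  have := Finset.sum_sdiff (f := wt 0 1 P) h
  simp only [sum_wt] at this
  omega

theorem ee_sdiff (P : Subgroup G) {O U : Finset Ω} (h : U ⊆ O) :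
    ee p P (O \ U) + ee p P U = ee p P O := by
  simp only [ee_eq]; exact Finset.sum_sdiff h

theorem nf_erase {P : Subgroup G} {O : Finset Ω} {α : Ω} (h : α ∈ O) (hα : Fx P α) :
    nf P (O.erase α) + 1 = nf P O := by
  rw [← nf_sdiff P (Finset.singleton_subset_iff.2 h), Finset.sdiff_singleton_eq_erase]
  simp [nf, Finset.filter_singleton, hα]

theorem ns_erase {P : Subgroup G} {O : Finset Ω} {α : Ω} (h : α ∈ O) (hα : Fx P α) :
    ns P (O.erase α) = ns P O := by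
  rw [← ns_sdiff P (Finset.singleton_subset_iff.2 h), Finset.sdiff_singleton_eq_erase]
  simp [ns, Finset.filter_singleton, hα]

theorem nf_pos_iff {P : Subgroup G} {O : Finset Ω} : 0 < nf P O ↔ ∃ γ ∈ O, Fx P γ := by
  simp [nf, Finset.card_pos, Finset.Nonempty]

theorem ns_pos_iff {P : Subgroup G} {O : Finset Ω} : 0 < ns P O ↔ ∃ γ ∈ O, ¬ Fx P γ := by
  simp [ns, Finset.card_pos, Finset.Nonempty]

theorem nf_smul {K : Subgroup G} {O : Finset Ω} (hO : Inv K O) {g : G} (hg : g ∈ K)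
    (P : Sylow p G) : nf ((g • P : Sylow p G) : Subgroup G) O = nf (P : Subgroup G) O := by
  symm
  refine Finset.card_bij (fun γ _ => g • γ) ?_ ?_ ?_
  · intro γ hγ
    rw [Finset.mem_filter] at hγ ⊢
    exact ⟨hO g hg γ hγ.1, (Fx_smul g P γ).2 hγ.2⟩
  · intro a _ b _ h; exact MulAction.injective g h
  · intro δ hδ
    rw [Finset.mem_filter] at hδ
    refine ⟨g⁻¹ • δ, Finset.mem_filter.2 ⟨hO _ (K.inv_mem hg) δ hδ.1, ?_⟩, smul_inv_smul g δ⟩
    rw [← Fx_smul g P, smul_inv_smul]; exact hδ.2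

theorem nf_conj [Finite G] [Fact p.Prime] {K : Subgroup G} {O : Finset Ω} (hO : Inv K O)
    {P Q : Sylow p G} (hP : (P : Subgroup G) ≤ K) (hQ : (Q : Subgroup G) ≤ K) :
    nf (P : Subgroup G) O = nf (Q : Subgroup G) O := by
  obtain ⟨g, hg, rfl⟩ := conj hP hQ
  exact (nf_smul hO hg P).symm

theorem ns_conj [Finite G] [Fact p.Prime] {K : Subgroup G} {O : Finset Ω} (hO : Inv K O)
    {P Q : Sylow p G} (hP : (P : Subgroup G) ≤ K) (hQ : (Q : Subgroup G) ≤ K) :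
    ns (P : Subgroup G) O = ns (Q : Subgroup G) O := by
  have h1 := nf_add_ns (P : Subgroup G) O
  have h2 := nf_add_ns (Q : Subgroup G) O
  have h3 := nf_conj hO hP hQ
  omega

theorem ee_conj [Finite G] [Fact p.Prime] {K : Subgroup G} {O : Finset Ω} (hO : Inv K O)
    {P Q : Sylow p G} (hP : (P : Subgroup G) ≤ K) (hQ : (Q : Subgroup G) ≤ K) :
    ee p (P : Subgroup G) O = ee p (Q : Subgroup G) O := by
  rw [ee, ee, nf_conj hO hP hQ, ns_conj hO hP hQ]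

section orbits
variable [Fintype Ω]

theorem mem_orb {K : Subgroup G} {γ δ : Ω} : δ ∈ orb K γ ↔ ∃ g ∈ K, g • γ = δ := by
  simp [orb]

theorem self_mem_orb (K : Subgroup G) (γ : Ω) : γ ∈ orb K γ :=
  mem_orb.2 ⟨1, K.one_mem, one_smul _ _⟩

theorem smul_mem_orb {K : Subgroup G} {g : G} (hg : g ∈ K) (γ : Ω) : g • γ ∈ orb K γ :=
  mem_orb.2 ⟨g, hg, rfl⟩

theorem orb_inv (K : Subgroup G) (γ : Ω) : Inv K (orb K γ) := by
  intro g hg δ hδ
  obtain ⟨h, hh, rfl⟩ := mem_orb.1 hδ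
  exact mem_orb.2 ⟨g * h, K.mul_mem hg hh, mul_smul _ _ _⟩

theorem orb_subset {K : Subgroup G} {O : Finset Ω} (hO : Inv K O) {γ : Ω} (hγ : γ ∈ O) :
    orb K γ ⊆ O := by
  intro δ hδ
  obtain ⟨h, hh, rfl⟩ := mem_orb.1 hδ
  exact hO h hh γ hγ

theorem orb_symm {K : Subgroup G} {γ δ : Ω} (h : δ ∈ orb K γ) : γ ∈ orb K δ := by
  obtain ⟨g, hg, rfl⟩ := mem_orb.1 h
  exact mem_orb.2 ⟨g⁻¹, K.inv_mem hg, inv_smul_smul _ _⟩

theorem orb_eq {K : Subgroup G} {γ δ : Ω} (h : δ ∈ orb K γ) : orb K δ = orb K γ :=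
  Finset.Subset.antisymm (orb_subset (orb_inv K γ) h) (orb_subset (orb_inv K δ) (orb_symm h))

theorem orb_mono {K L : Subgroup G} (h : L ≤ K) (γ : Ω) : orb L γ ⊆ orb K γ :=
  orb_subset ((orb_inv K γ).mono h) (self_mem_orb K γ)

theorem exists_smul_of_mem_orb {K : Subgroup G} {α γ δ : Ω} (hγ : γ ∈ orb K α)
    (hδ : δ ∈ orb K α) : ∃ g ∈ K, g • γ = δ := by
  rw [← orb_eq hγ] at hδ; exact mem_orb.1 hδ

theorem not_Fx_of_mem_orb {K : Subgroup G} {γ δ : Ω} (h : δ ∈ orb K γ) (hγ : ¬ Fx K γ) :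
    ¬ Fx K δ := by
  intro hδ
  obtain ⟨g, hg, rfl⟩ := mem_orb.1 (orb_symm h)
  rw [hδ g hg] at hγ
  exact hγ hδ

theorem sum_mem (S : AddSubmonoid ℤ) (w : Ω → ℤ) (K : Subgroup G) (O : Finset Ω) (hO : Inv K O)
    (h : ∀ γ ∈ O, ∑ δ ∈ orb K γ, w δ ∈ S) : ∑ δ ∈ O, w δ ∈ S := by
  induction O using Finset.strongInduction with
  | H O ih =>
  rcases O.eq_empty_or_nonempty with rfl | ⟨γ, hγ⟩
  · simp
  · rw [← Finset.sum_sdiff (orb_subset hO hγ)]
    refine S.add_mem (ih _ ?_ (hO.sdiff (orb_inv K γ)) fun δ hδ => h δ (Finset.mem_sdiff.1 hδ).1)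
      (h γ hγ)
    exact Finset.sdiff_ssubset (orb_subset hO hγ) ⟨γ, self_mem_orb K γ⟩

theorem ee_nonneg_of_orb (P K : Subgroup G) (O : Finset Ω) (hO : Inv K O)
    (h : ∀ γ ∈ O, 0 ≤ ee p P (orb K γ)) : 0 ≤ ee p P O := by
  rw [ee_eq]
  exact sum_mem (AddSubmonoid.nonneg ℤ) _ K O hO fun γ hγ => by
    rw [← ee_eq]; exact h γ hγ

theorem dvd_card_of_orb (q : ℕ) (K : Subgroup G) (O : Finset Ω) (hO : Inv K O)
    (h : ∀ γ ∈ O, q ∣ (orb K γ).card) : q ∣ O.card := by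
  have := sum_mem (AddSubmonoid.multiples (q : ℤ)) (fun _ => 1) K O hO fun γ hγ => by
    obtain ⟨c, hc⟩ := h γ hγ
    exact ⟨c, by simp [hc, mul_comm]⟩
  obtain ⟨c, hc⟩ := this
  simp only [nsmul_eq_mul, Finset.sum_const, mul_one] at hc
  exact ⟨c, by exact_mod_cast (by rw [← hc]; ring : (O.card : ℤ) = q * c)⟩

theorem card_orb (K : Subgroup G) (γ : Ω) :
    (orb K γ).card = (MulAction.stabilizer G γ).relIndex K := by
  have h1 : (MulAction.stabilizer G γ).subgroupOf K = MulAction.stabilizer K γ := by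
    ext x; rfl
  rw [Subgroup.relIndex, h1, MulAction.index_stabilizer, ← Set.ncard_coe_finset]
  congr 1
  ext δ
  rw [Finset.mem_coe, mem_orb]
  exact ⟨fun ⟨g, hg, e⟩ => ⟨⟨g, hg⟩, e⟩, fun ⟨g, e⟩ => ⟨g, g.2, e⟩⟩

theorem inv_moved {P : Subgroup G} {O : Finset Ω} (hO : Inv P O) :
    Inv P (O.filter fun γ => ¬ Fx P γ) := by
  intro g hg γ hγ
  rw [Finset.mem_filter] at hγ ⊢
  exact ⟨hO g hg γ hγ.1, not_Fx_of_mem_orb (smul_mem_orb hg γ) hγ.2⟩

theorem card_orb_prime [Finite G] [hp : Fact p.Prime] {P : Subgroup G} (hP : Nat.card P = p)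
    {γ : Ω} (hγ : ¬ Fx P γ) : (orb P γ).card = p := by
  rw [card_orb]
  have h1 : (MulAction.stabilizer G γ).relIndex P ∣ p := hP ▸ Subgroup.relIndex_dvd_card _ _
  rcases (Nat.dvd_prime hp.out).1 h1 with h | h
  · exact absurd (Subgroup.relIndex_eq_one.1 h) hγ
  · exact h

theorem dvd_ns [Finite G] [Fact p.Prime] {P : Subgroup G} (hP : Nat.card P = p) {O : Finset Ω}
    (hO : Inv P O) : p ∣ ns P O :=
  dvd_card_of_orb p P _ (inv_moved hO) fun γ hγ => by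
    rw [card_orb_prime hP (Finset.mem_filter.1 hγ).2]

theorem ns_pos [Finite G] [Fact p.Prime] {K : Subgroup G} (hK : Good p K) {P : Sylow p G}
    (hP : (P : Subgroup G) ≤ K) {γ : Ω} (hγ : ¬ Fx K γ) : 0 < ns (P : Subgroup G) (orb K γ) := by
  by_contra h0
  refine hγ (Fx.mono hK (Fx_gen.2 fun Q hQ => ?_))
  rw [ns_conj (orb_inv K γ) hP hQ, ns_pos_iff] at h0
  by_contra h
  exact h0 ⟨γ, self_mem_orb K γ, h⟩

theorem le_ns [Finite G] [Fact p.Prime] (hq : ∀ P : Sylow p G, Nat.card P = p) {K : Subgroup G}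
    (hK : Good p K) {P : Sylow p G} (hP : (P : Subgroup G) ≤ K) {γ : Ω} (hγ : ¬ Fx K γ) :
    p ≤ ns (P : Subgroup G) (orb K γ) :=
  Nat.le_of_dvd (ns_pos hK hP hγ) (dvd_ns (hq P) ((orb_inv K γ).mono hP))

/-- A cycle of `P` is fixed pointwise by no Sylow subgroup. -/
theorem unf_orb [Finite G] [Fact p.Prime] (K : Subgroup G) (P : Sylow p G) {γ : Ω}
    (hγ : ¬ Fx (P : Subgroup G) γ) : Unf p K (orb (P : Subgroup G) γ) := by
  intro Q _
  by_contra h
  push Not at h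
  have hi : Inv ((P : Subgroup G) ⊔ Q) (orb (P : Subgroup G) γ) := by
    have : (P : Subgroup G) ⊔ Q ≤ MulAction.stabilizer G (orb (P : Subgroup G) γ) := by
      refine sup_le (fun x hx => ?_) fun x hx => ?_
      · rw [MulAction.mem_stabilizer_finset']
        exact fun δ hδ => orb_inv _ γ x hx δ hδ
      · rw [MulAction.mem_stabilizer_finset']
        exact fun δ hδ => by rw [h δ hδ x hx]; exact hδ
    intro g hg δ hδ
    exact MulAction.mem_stabilizer_finset'.1 (this hg) hδ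
  have h1 := ns_conj hi (P := P) (Q := Q) le_sup_left le_sup_right
  have h2 : 0 < ns (P : Subgroup G) (orb (P : Subgroup G) γ) :=
    ns_pos_iff.2 ⟨γ, self_mem_orb _ γ, hγ⟩
  rw [h1, ns_pos_iff] at h2
  obtain ⟨δ, hδ, h3⟩ := h2
  exact h3 (h δ hδ)

theorem A_ncard {K : Subgroup G} {γ δ : Ω} (h : δ ∈ orb K γ) :
    (A p K δ).ncard = (A p K γ).ncard := by
  obtain ⟨g, hg, rfl⟩ := mem_orb.1 h
  rw [A_smul hg, Set.ncard_smul_set]

theorem A_eq_of_subset [Finite G] {K : Subgroup G} {α γ δ : Ω} (hγ : γ ∈ orb K α)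
    (hδ : δ ∈ orb K α) (h : A p K γ ⊆ A p K δ) : A p K γ = A p K δ :=
  Set.eq_of_subset_of_ncard_le h (by rw [A_ncard hγ, A_ncard hδ]) (Set.toFinite _)

theorem A_nonempty {K : Subgroup G} {γ δ : Ω} (h : δ ∈ orb K γ) (hγ : (A p K γ).Nonempty) :
    (A p K δ).Nonempty := by
  obtain ⟨g, hg, rfl⟩ := mem_orb.1 h
  rw [A_smul hg]; exact hγ.smul_set

theorem A_nonempty_iff [Finite G] [Fact p.Prime] {K : Subgroup G} {P : Sylow p G}
    (hP : (P : Subgroup G) ≤ K) {γ : Ω} :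
    (A p K γ).Nonempty ↔ 0 < nf (P : Subgroup G) (orb K γ) := by
  constructor
  · rintro ⟨Q, hQ⟩
    rw [nf_conj (orb_inv K γ) hP hQ.1, nf_pos_iff]
    exact ⟨γ, self_mem_orb K γ, hQ.2⟩
  · intro h
    obtain ⟨δ, hδ, h⟩ := nf_pos_iff.1 h
    exact A_nonempty (orb_symm hδ) ⟨P, hP, h⟩

/-- In a reduced orbit, `St K α` fixes only `α`. -/
theorem Red.not_Fx [Finite G] {K : Subgroup G} {α β γ : Ω} (h : Red p K (orb K α))
    (hβ : β ∈ orb K α) (hγ : γ ∈ (orb K α).erase β) : ¬ Fx (St p K β) γ := by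
  intro hf
  rw [Finset.mem_erase] at hγ
  exact hγ.1 (h.2 β hβ γ hγ.2 (A_eq_of_subset hβ hγ.2 (Fx_St.1 hf))).symm

end orbits

end Cfsg.Lib.SyR
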