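import Mathlib

/-! Definitions for the Sylow ratio theorem (S4181): fixed points of Sylow subgroups. -/

set_option autoImplicit false
open Pointwise
open scoped Classical

namespace Cfsg.Lib.SyR

universe u
variable {G : Type u} [Group G] {Ω : Type u} [MulAction G Ω]

/-- `P` fixes the point `γ`. -/
def Fx (P : Subgroup G) (γ : Ω) : Prop := ∀ x ∈ P, x • γ = γ

/-- The Sylow subgroups of `G` inside `K`. -/
def X (p : ℕ) (K : Subgroup G) : Set (Sylow p G) := {Q | (Q : Subgroup G) ≤ K}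

/-- The Sylow subgroups of `G` inside `K` that fix `γ`. -/
def A (p : ℕ) (K : Subgroup G) (γ : Ω) : Set (Sylow p G) :=
  {Q | (Q : Subgroup G) ≤ K ∧ Fx (Q : Subgroup G) γ}

/-- The subgroup generated by a set of Sylow subgroups. -/
def gen {p : ℕ} (S : Set (Sylow p G)) : Subgroup G := ⨆ Q ∈ S, (Q : Subgroup G)

/-- `K` is generated by the Sylow subgroups of `G` it contains. -/
def Good (p : ℕ) (K : Subgroup G) : Prop := K ≤ gen (X p K)

/-- The subgroup generated by the Sylow subgroups in the stabilizer `K_γ`. -/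
def St (p : ℕ) (K : Subgroup G) (γ : Ω) : Subgroup G := gen (A p K γ)

/-- The `K`-orbit of `γ`. -/
noncomputable def orb [Fintype Ω] (K : Subgroup G) (γ : Ω) : Finset Ω :=
  Finset.univ.filter fun δ => ∃ g ∈ K, g • γ = δ

/-- `O` is `K`-invariant. -/
def Inv (K : Subgroup G) (O : Finset Ω) : Prop := ∀ g ∈ K, ∀ γ ∈ O, g • γ ∈ O

/-- Number of points of `O` fixed by `P`. -/
noncomputable def nf (P : Subgroup G) (O : Finset Ω) : ℕ := (O.filter (Fx P)).card

/-- Number of points of `O` moved by `P`. -/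
noncomputable def ns (P : Subgroup G) (O : Finset Ω) : ℕ := (O.filter fun γ => ¬ Fx P γ).card

/-- `p` times the deficiency: `(p-1) s - p f`. -/
noncomputable def ee (p : ℕ) (P : Subgroup G) (O : Finset Ω) : ℤ :=
  ((p : ℤ) - 1) * ns P O - p * nf P O

/-- Reduced: every point is fixed by a Sylow subgroup and determined by the set of those. -/
def Red (p : ℕ) (K : Subgroup G) (O : Finset Ω) : Prop :=
  (∀ γ ∈ O, (A p K γ).Nonempty) ∧ ∀ γ ∈ O, ∀ δ ∈ O, A p K γ = A p K δ → γ = δ

/-- No Sylow subgroup in `K` fixes `Z` pointwise. -/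
def Unf (p : ℕ) (K : Subgroup G) (Z : Finset Ω) : Prop :=
  ∀ Q : Sylow p G, (Q : Subgroup G) ≤ K → ∃ γ ∈ Z, ¬ Fx (Q : Subgroup G) γ

noncomputable instance fintypeSetSylow (p : ℕ) [Finite G] : Fintype (Set (Sylow p G)) :=
  Fintype.ofFinite _

/-- Size of the fibre (block) of `γ` under `δ ↦ A p K δ` in its orbit. -/
noncomputable def fib [Fintype Ω] (p : ℕ) (K : Subgroup G) (γ : Ω) : ℕ :=
  ((orb K γ).filter fun δ => A p K δ = A p K γ).card

/-- The main inductive claim at `K`. -/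
def MI (p : ℕ) (K : Subgroup G) : Prop :=
  ∀ (Ω : Type u) [MulAction G Ω] [Fintype Ω] (P : Sylow p G) (α : Ω) (Z : Finset Ω),
    Good p K → (P : Subgroup G) ≤ K → Red p K (orb K α) → Z ⊆ orb K α → Unf p K Z →
    (ns (P : Subgroup G) (orb K α) = p → nf (P : Subgroup G) (orb K α) + 1 ≤ Z.card) ∧
    (p < ns (P : Subgroup G) (orb K α) →
      (p : ℤ) * (2 * p - 3 - Z.card) ≤ ee p (P : Subgroup G) (orb K α))

end Cfsg.Lib.SyR
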