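import Cfsg.Agent.Lib.SyR.Red

/-! The linear space argument: if all points are natural there is one cycle only. -/

set_option autoImplicit false
open Pointwise
open scoped Classical

namespace Cfsg.Lib.SyR

universe u

variable {G : Type u} [Group G] [Finite G] {Ω : Type u} [MulAction G Ω] [Fintype Ω] {p : ℕ}
  [hp : Fact p.Prime]

theorem two_fix (hq : ∀ P : Sylow p G, Nat.card P = p) {L : Subgroup G}
    {P : Sylow p G} {α u w v : Ω} (hr : Red p L (orb L α))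
    (hs : ns (P : Subgroup G) (orb L α) = p) (hf : 2 ≤ nf (P : Subgroup G) (orb L α))
    (hu : u ∈ orb L α) (hPu : P ∈ A p L u) (hw : w ∈ (orb L α).erase u) (hv : v ∈ orb L α)
    (h : A p L u ∩ A p L w ⊆ A p L v) : v = u ∨ v = w := by
  by_cases hvu : v = u
  · exact Or.inl hvu
  right
  have ho := t1_orb hq hPu.1 hr hs hu hw
  have hP' : (P : Subgroup G) ≤ St p L u := le_St.2 hPu
  have h1 := nf_erase hu hPu.2
  have hr2 : Red p (St p L u) (orb (St p L u) w) := by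
    refine t1_red hq (St_good L u) hP' ((A_nonempty_iff hP').2 ?_) ?_
    · rw [ho]; omega
    · rw [ho, ns_erase hu hPu.2, hs]
  have hv' : v ∈ orb (St p L u) w := by rw [ho]; exact Finset.mem_erase.2 ⟨hvu, hv⟩
  refine (hr2.2 w (self_mem_orb _ _) v hv' (A_eq_of_subset (self_mem_orb _ w) hv' ?_)).symm
  rw [A_St, A_St]
  exact Set.subset_inter Set.inter_subset_left h

theorem geo (hq : ∀ P : Sylow p G, Nat.card P = p) {K : Subgroup G} {P : Sylow p G} {α β : Ω}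
    (hPα : P ∈ A p K α) (hβ : β ∈ (orb K α).erase α)
    (hne : (A p (St p K α) β).Nonempty)
    (hs : ns (P : Subgroup G) (orb (St p K α) (A p (St p K α) β)) = p)
    (hf : 2 ≤ nf (P : Subgroup G) (orb (St p K α) (A p (St p K α) β)))
    (hall : ∀ γ ∈ (orb K α).erase α, A p (St p K α) γ ∈ orb (St p K α) (A p (St p K α) β)) :
    ns (P : Subgroup G) (orb K α) ≤ p := by
  set L := St p K α with hL
  set U := orb L (A p L β) with hU
  have hPL : (P : Subgroup G) ≤ L := le_St.2 hPα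
  have hI : Inv L ((orb K α).erase α) := ((orb_inv K α).mono (St_le K α)).erase (St_fx K α)
  have hne' : ∀ γ ∈ (orb K α).erase α, (A p L γ).Nonempty := by
    intro γ hγ
    obtain ⟨δ, hδ, e⟩ := mem_orb_A.1 (hall γ hγ)
    rw [← e]; exact A_nonempty hδ hne
  by_cases hinj : ∀ γ ∈ (orb K α).erase α, ∀ δ ∈ (orb K α).erase α, A p L γ = A p L δ → γ = δ
  · rw [← ns_erase (self_mem_orb K α) hPα.2]
    refine le_trans ?_ hs.le
    refine Finset.card_le_card_of_injOn (A p L) (fun γ hγ => ?_) fun γ hγ δ hδ e => ?_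
    · rw [Finset.mem_coe, Finset.mem_filter] at hγ ⊢
      exact ⟨hall γ hγ.1, by rw [Fx_A (hne' γ hγ.1) hPL]; exact hγ.2⟩
    · exact hinj γ (Finset.mem_filter.1 hγ).1 δ (Finset.mem_filter.1 hδ).1 e
  exfalso
  push Not at hinj
  obtain ⟨γ0, hγ0, δ0, hδ0, e0, n0⟩ := hinj
  have C0 : ∀ γ ∈ (orb K α).erase α, ∃ δ ∈ (orb K α).erase α, δ ≠ γ ∧
      A p K α ∩ A p K δ = A p K α ∩ A p K γ := by
    intro γ hγ
    obtain ⟨g, hg, e⟩ := exists_smul_of_mem_orb (hall γ0 hγ0) (hall γ hγ)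
    by_cases h : g • γ0 = γ
    · refine ⟨g • δ0, hI g hg _ hδ0, fun h2 => n0 (MulAction.injective g (h.trans h2.symm)), ?_⟩
      rw [← A_St, ← A_St, A_smul hg, ← e0, e]
    · exact ⟨g • γ0, hI g hg _ hγ0, h, by rw [← A_St, ← A_St, A_smul hg, e]⟩
  have l0 : ∀ γ ∈ (orb K α).erase α, (A p K α ∩ A p K γ).ncard = (A p L β).ncard := by
    intro γ hγ
    obtain ⟨δ, hδ, e⟩ := mem_orb_A.1 (hall γ hγ)
    rw [← A_St, ← hL, ← e, A_ncard hδ]
  have tr : ∀ g ∈ K, ∀ γ ∈ (orb K α).erase (g • α), g⁻¹ • γ ∈ (orb K α).erase α := by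
    intro g hg γ hγ
    rw [Finset.mem_erase] at hγ ⊢
    exact ⟨fun h => hγ.1 (by rw [← h, smul_inv_smul]), orb_inv K α _ (K.inv_mem hg) _ hγ.2⟩
  have C1 : ∀ b ∈ orb K α, ∀ γ ∈ (orb K α).erase b, ∃ δ ∈ (orb K α).erase b, δ ≠ γ ∧
      A p K b ∩ A p K δ = A p K b ∩ A p K γ := by
    intro b hb γ hγ
    obtain ⟨g, hg, rfl⟩ := mem_orb.1 hb
    obtain ⟨δ, hδ, h1, h2⟩ := C0 _ (tr g hg γ hγ)
    rw [Finset.mem_erase] at hδ
    refine ⟨g • δ, Finset.mem_erase.2 ⟨fun h => hδ.1 (MulAction.injective g h),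
      orb_inv K α g hg _ hδ.2⟩, fun h => h1 (by rw [← h, inv_smul_smul]), ?_⟩
    rw [A_smul hg, A_smul hg, ← Set.smul_set_inter, h2, Set.smul_set_inter, ← A_smul hg (g⁻¹ • γ),
      smul_inv_smul]
  have l1 : ∀ b ∈ orb K α, ∀ γ ∈ (orb K α).erase b,
      (A p K b ∩ A p K γ).ncard = (A p L β).ncard := by
    intro b hb γ hγ
    obtain ⟨g, hg, rfl⟩ := mem_orb.1 hb
    rw [← l0 _ (tr g hg γ hγ), ← Set.ncard_smul_set g (A p K α ∩ _), Set.smul_set_inter,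
      ← A_smul hg, ← A_smul hg, smul_inv_smul]
  obtain ⟨u, hu, hPu⟩ := nf_pos_iff.1 (lt_of_lt_of_le two_pos hf)
  have h1 := (nf_erase hu hPu).symm ▸ hf
  obtain ⟨w, hw, -⟩ := nf_pos_iff.1 (Nat.lt_of_succ_lt_succ h1)
  have fx := fun v hv => two_fix hq (red_A hne) hs hf hu ⟨hPL, hPu⟩ hw (v := v) hv
  obtain ⟨b, hb, rfl⟩ := mem_orb_A.1 hu
  obtain ⟨c, hc, rfl⟩ := mem_orb_A.1 (Finset.mem_erase.1 hw).2
  have hb' := orb_subset hI hβ hb
  have hc' := orb_subset hI hβ hc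
  have hbc : A p K α ∩ A p K b ≠ A p K α ∩ A p K c := by
    rw [← A_St, ← A_St]; exact (Finset.mem_erase.1 hw).1.symm
  have hcb : c ∈ (orb K α).erase b := Finset.mem_erase.2 ⟨fun h => hbc (by rw [h]),
    (Finset.mem_erase.1 hc').2⟩
  obtain ⟨d, hd, hdc, e⟩ := C1 b (Finset.mem_erase.1 hb').2 c hcb
  have eq := fun {s t : Set (Sylow p G)} (h : s ⊆ t) (h1 : s.ncard = (A p L β).ncard)
    (h2 : t.ncard = (A p L β).ncard) => Set.eq_of_subset_of_ncard_le h (by rw [h1, h2])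
      (Set.toFinite _)
  have lab := l0 b hb'
  have lac := l0 c hc'
  have lbc := l1 b (Finset.mem_erase.1 hb').2 c hcb
  have hbd : ∀ x, x ∈ A p K b → (x ∈ A p K d ↔ x ∈ A p K c) := fun x hx =>
    ⟨fun h => ((Set.ext_iff.1 e x).1 ⟨hx, h⟩).2, fun h => ((Set.ext_iff.1 e x).2 ⟨hx, h⟩).2⟩
  by_cases hda : d = α
  · subst hda
    exact hbc (eq (fun x hx => ⟨hx.1, (hbd x hx.2).1 hx.1⟩) lab lac)
  have hd' : d ∈ (orb K α).erase α := Finset.mem_erase.2 ⟨hda, (Finset.mem_erase.1 hd).2⟩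
  have h2 := fx _ (hall d hd') (by
    rw [A_A (hne' b hb'), A_A (hne' c hc'), A_A (hne' d hd'), A_St, A_St, A_St]
    exact fun x hx => ⟨hx.1.1, (hbd x hx.1.2).2 hx.2.2⟩)
  rw [A_St, A_St, A_St] at h2
  rcases h2 with h2 | h2
  · refine hbc (eq (fun x hx => ⟨hx.1, (hbd x hx.2).1 ?_⟩) lab lac)
    exact ((Set.ext_iff.1 h2 x).2 hx).2
  · have ldc := l1 d (Finset.mem_erase.1 hd).2 c
      (Finset.mem_erase.2 ⟨hdc.symm, (Finset.mem_erase.1 hc').2⟩)
    have e1 : A p K α ∩ A p K c = A p K d ∩ A p K c :=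
      eq (fun x hx => ⟨((Set.ext_iff.1 h2 x).2 hx).2, hx.2⟩) lac ldc
    have e2 : A p K b ∩ A p K c = A p K α ∩ A p K c :=
      eq (fun x hx => by rw [e1]; exact ⟨(hbd x hx.1).2 hx.2, hx.2⟩) lbc lac
    have e3 : A p K α ∩ A p K c = A p K α ∩ A p K b :=
      eq (fun x hx => ⟨hx.1, ((Set.ext_iff.1 e2 x).2 hx).1⟩) lac lab
    exact hbc e3.symm

end Cfsg.Lib.SyR
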