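import Cfsg.Agent.Lib.SyR.W

/-! Reduction of the Sylow ratio theorem to the semiregular case. -/

set_option autoImplicit false
open Pointwise
open scoped Classical

namespace Cfsg.Lib.SyR

universe u

/-- The bound `p f ≤ (p-1) s` for transitive actions with Sylow subgroups semiregular on their supports. -/
def TS (p : ℕ) : Prop :=
  ∀ (G : Type u) [Group G] [Finite G] (Ω : Type u) [MulAction G Ω] [Fintype Ω]
    [MulAction.IsPretransitive G Ω] (P : Sylow p G), SRg p (⊤ : Subgroup G) (Finset.univ : Finset Ω) →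
    0 < ns (P : Subgroup G) (Finset.univ : Finset Ω) →
    0 ≤ ee p (P : Subgroup G) (Finset.univ : Finset Ω)

/-- The bound for all transitive actions of degree `n`. -/
def TG (p n : ℕ) : Prop :=
  ∀ (G : Type u) [Group G] [Finite G] (Ω : Type u) [MulAction G Ω] [Fintype Ω]
    [MulAction.IsPretransitive G Ω] (P : Sylow p G), Fintype.card Ω = n →
    0 < ns (P : Subgroup G) (Finset.univ : Finset Ω) →
    0 ≤ ee p (P : Subgroup G) (Finset.univ : Finset Ω)

variable {G : Type u} [Group G] [Finite G] {Ω : Type u} [MulAction G Ω] [Fintype Ω] {p : ℕ}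
  [hp : Fact p.Prime]

omit [Finite G] [Fintype Ω] hp in
theorem top_ee_congr {G' : Type u} [Group G'] [MulAction G' Ω] {P : Subgroup G} {P' : Subgroup G'}
    {O : Finset Ω} (h : ∀ γ ∈ O, Fx P γ ↔ Fx P' γ) :
    ns P O = ns P' O ∧ ee p P O = ee p P' O := by
  have h1 : nf P O = nf P' O := by
    rw [nf, nf, Finset.filter_congr h]
  have h2 : ns P O = ns P' O := by
    rw [ns, ns, Finset.filter_congr fun γ hγ => not_congr (h γ hγ)]
  exact ⟨h2, by rw [ee, ee, h1, h2]⟩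

/-- Pass to `Ḡ = (MulAction.toPermHom G Ω).range` and `P̄ = P.mapSurjective` (range restriction):
`Fx P̄ γ ↔ Fx P γ`; every Sylow subgroup of `Ḡ` is conjugate to `P̄` (`Fx_smul`), which is semiregular. -/
theorem triv_case (hTS : TS.{u} p) [MulAction.IsPretransitive G Ω] (P : Sylow p G)
    (h : ∀ x ∈ (P : Subgroup G), ∀ γ : Ω, ¬ Fx (P : Subgroup G) γ → x • γ = γ → ∀ δ : Ω, x • δ = δ)
    (hs : 0 < ns (P : Subgroup G) (Finset.univ : Finset Ω)) :
    0 ≤ ee p (P : Subgroup G) (Finset.univ : Finset Ω) := by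
  let f := (MulAction.toPermHom G Ω).rangeRestrict
  have hf : Function.Surjective f := MonoidHom.rangeRestrict_surjective _
  have hsm : ∀ (g : G) (δ : Ω), f g • δ = g • δ := fun g δ => rfl
  haveI : MulAction.IsPretransitive (MulAction.toPermHom G Ω).range Ω := ⟨fun a b => by
    obtain ⟨g, hg⟩ := MulAction.exists_smul_eq G a b
    exact ⟨f g, hg⟩⟩
  let P' := P.mapSurjective hf
  have hmem : ∀ y, y ∈ (P' : Subgroup (MulAction.toPermHom G Ω).range) ↔
      ∃ x ∈ (P : Subgroup G), f x = y := fun y => Iff.rfl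
  have hfx : ∀ γ : Ω, Fx (P : Subgroup G) γ ↔
      Fx (P' : Subgroup (MulAction.toPermHom G Ω).range) γ := by
    intro γ
    constructor
    · intro hγ y hy
      obtain ⟨x, hx, rfl⟩ := (hmem y).1 hy
      exact hγ x hx
    · intro hγ x hx
      exact hγ (f x) ((hmem _).2 ⟨x, hx, rfl⟩)
  obtain ⟨e1, e2⟩ := top_ee_congr (p := p) (O := Finset.univ) fun γ _ => hfx γ
  rw [e2]
  refine hTS _ Ω P' ?_ (e1 ▸ hs)
  intro Q _ x hx hx1 γ _ hγ
  obtain ⟨g, rfl⟩ := MulAction.exists_smul_eq (MulAction.toPermHom G Ω).range P' Q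
  obtain ⟨y, hy, e⟩ := (hmem _).1 ((mem_smul_sylow g P' x).1 hx)
  rw [← smul_inv_smul g γ, Fx_smul, ← hfx]
  by_contra hn
  have h1 : y • g⁻¹ • γ = g⁻¹ • γ := by
    rw [← hsm, e, mul_smul, mul_smul, smul_inv_smul, hγ]
  have h2 : f y = 1 := by
    apply Subtype.ext
    ext δ
    exact h y hy _ hn h1 δ
  rw [e] at h2
  apply hx1
  calc x = g * (g⁻¹ * x * g) * g⁻¹ := by group
    _ = 1 := by rw [h2]; group

/-- Transport: apply `TG` to the group `M` acting on `MulAction.orbit M γ` (or the subtype of `orb M γ`). -/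
theorem orb_case (M : Subgroup G) (T : Sylow p M) (γ : Ω) (h : TG.{u} p (orb M γ).card)
    (hs : 0 < ns ((T : Subgroup M).map M.subtype) (orb M γ)) :
    0 ≤ ee p ((T : Subgroup M).map M.subtype) (orb M γ) := by
  letI : Fintype (MulAction.orbit M γ) := Fintype.ofFinite _
  have hm : ∀ δ : Ω, δ ∈ orb M γ ↔ δ ∈ MulAction.orbit M γ := fun δ => by
    rw [mem_orb]
    exact ⟨fun ⟨g, hg, e⟩ => ⟨⟨g, hg⟩, e⟩, fun ⟨g, e⟩ => ⟨g, g.2, e⟩⟩
  have hfx : ∀ δ : MulAction.orbit M γ,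
      Fx (T : Subgroup M) δ ↔ Fx ((T : Subgroup M).map M.subtype) (δ : Ω) := by
    intro δ
    constructor
    · rintro hδ _ ⟨x, hx, rfl⟩
      exact congrArg Subtype.val (hδ x hx)
    · intro hδ x hx
      exact Subtype.ext (hδ x ⟨x, hx, rfl⟩)
  have key : ∀ (a : MulAction.orbit M γ → Prop) (b : Ω → Prop) [DecidablePred a] [DecidablePred b],
      (∀ δ, a δ ↔ b δ) → (Finset.univ.filter a).card = ((orb M γ).filter b).card := by
    intro a b _ _ hab
    refine Finset.card_bij (fun δ _ => (δ : Ω)) ?_ ?_ ?_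
    · intro δ hδ
      rw [Finset.mem_filter] at hδ ⊢
      exact ⟨(hm _).2 δ.2, (hab δ).1 hδ.2⟩
    · intro a _ b _ h; exact Subtype.ext h
    · intro δ hδ
      rw [Finset.mem_filter] at hδ
      exact ⟨⟨δ, (hm _).1 hδ.1⟩, Finset.mem_filter.2 ⟨Finset.mem_univ _, (hab _).2 hδ.2⟩, rfl⟩
  have h1 : nf (T : Subgroup M) (Finset.univ : Finset (MulAction.orbit M γ)) =
      nf ((T : Subgroup M).map M.subtype) (orb M γ) := key _ _ hfx
  have h2 : ns (T : Subgroup M) (Finset.univ : Finset (MulAction.orbit M γ)) =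
      ns ((T : Subgroup M).map M.subtype) (orb M γ) :=
    key (fun δ => ¬ Fx (T : Subgroup M) δ) (fun δ => ¬ Fx ((T : Subgroup M).map M.subtype) δ)
      fun δ => not_congr (hfx δ)
  have h3 : Fintype.card (MulAction.orbit M γ) = (orb M γ).card := by
    rw [← nf_add_ns ((T : Subgroup M).map M.subtype), ← h1, ← h2, nf_add_ns, Finset.card_univ]
  have := h M (MulAction.orbit M γ) T h3 (h2 ▸ hs)
  rwa [ee, h1, h2] at this

/-- `γ` is moved by `P` with stabilizer `P_γ` of maximal order among the moved points. -/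
def Mx (P : Subgroup G) (γ : Ω) : Prop :=
  ¬ Fx P γ ∧ ∀ δ : Ω, ¬ Fx P δ →
    Nat.card (P ⊓ MulAction.stabilizer G δ : Subgroup G) ≤
      Nat.card (P ⊓ MulAction.stabilizer G γ : Subgroup G)

/-- The normalizer of `P_γ`. -/
def NN (P : Subgroup G) (γ : Ω) : Subgroup G :=
  Subgroup.normalizer ((P ⊓ MulAction.stabilizer G γ : Subgroup G) : Set G)

/-- The orbit of `γ` under the normalizer of `P_γ`. -/
noncomputable def UU (P : Subgroup G) (γ : Ω) : Finset Ω := orb (NN P γ) γ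

omit [Finite G] in
theorem fx_UU {P : Subgroup G} {γ δ : Ω} (hδ : δ ∈ UU P γ) :
    Fx (P ⊓ MulAction.stabilizer G γ) δ := by
  obtain ⟨m, hm, rfl⟩ := mem_orb.1 hδ
  intro x hx
  have h1 : m⁻¹ * x * m ∈ P ⊓ MulAction.stabilizer G γ := by
    have := (Subgroup.mem_normalizer_iff.1 ((NN P γ).inv_mem hm) x).1 hx
    simpa using this
  have h2 : (m⁻¹ * x * m) • γ = γ := h1.2
  rwa [mul_smul, mul_smul, inv_smul_eq_iff] at h2

omit [Fintype Ω] in
theorem stab_eq' {P : Subgroup G} {γ δ : Ω} (hγ : Mx P γ)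
    (hδ : Fx (P ⊓ MulAction.stabilizer G γ) δ) (h : ¬ Fx P δ) :
    P ⊓ MulAction.stabilizer G δ = P ⊓ MulAction.stabilizer G γ :=
  (Subgroup.eq_of_le_of_card_ge (le_inf inf_le_left hδ) (hγ.2 δ h)).symm

omit [Finite G] [Fintype Ω] hp in
theorem stab_smul (g : G) (P : Sylow p G) (δ : Ω) :
    ((g • P : Sylow p G) : Subgroup G) ⊓ MulAction.stabilizer G (g • δ) =
      ((P : Subgroup G) ⊓ MulAction.stabilizer G δ).map (MulAut.conj g).toMonoidHom := by
  rw [Subgroup.map_inf _ _ _ (MulAut.conj g).injective,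
    MulAction.stabilizer_smul_eq_stabilizer_map_conj]
  rfl

omit [Finite G] [Fintype Ω] hp in
theorem card_stab_smul (g : G) (P : Sylow p G) (δ : Ω) :
    Nat.card (((g • P : Sylow p G) : Subgroup G) ⊓ MulAction.stabilizer G (g • δ) : Subgroup G) =
      Nat.card ((P : Subgroup G) ⊓ MulAction.stabilizer G δ : Subgroup G) := by
  rw [stab_smul, Subgroup.card_map_of_injective (MulAut.conj g).injective]

/-- The normalizer condition in a `p`-subgroup. -/
theorem exists_norm {S Q : Subgroup G} (hS : IsPGroup p S) (hQS : Q ≤ S) (hne : ¬ S ≤ Q) :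
    ∃ x ∈ S, x ∈ Subgroup.normalizer (Q : Set G) ∧ x ∉ Q := by
  haveI := hS.isNilpotent
  have h1 : Q.subgroupOf S < ⊤ := by
    rw [lt_top_iff_ne_top, Ne, Subgroup.subgroupOf_eq_top]
    exact hne
  obtain ⟨x, hx, hx'⟩ := SetLike.exists_of_lt (Group.normalizerCondition_of_isNilpotent _ h1)
  rw [← Subgroup.subgroupOf_normalizer_eq hQS] at hx
  exact ⟨x, x.2, hx, hx'⟩

theorem exists_sylow_le {K Q : Subgroup G} {P : Sylow p G} (hP : (P : Subgroup G) ≤ K)
    (hQ : IsPGroup p Q) (hQK : Q ≤ K) :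
    ∃ P' : Sylow p G, Q ≤ P' ∧ (P' : Subgroup G) ≤ K := by
  obtain ⟨S, hS⟩ := (hQ.comap_subtype (K := K)).exists_le_sylow
  obtain ⟨k, hk⟩ := MulAction.exists_smul_eq K (P.subtype hP) S
  refine ⟨(k : G) • P, fun x hx => ?_, (smul_le k.2 P).2 hP⟩
  have h1 : (⟨x, hQK hx⟩ : K) ∈ (S : Subgroup K) := hS hx
  rw [← hk, mem_smul_sylow] at h1
  exact (mem_smul_sylow _ P x).2 h1

/-- `Q = P_γ`, `M = N(Q)`.  Points of `UU P γ` are fixed by `Q`; a moved one has `P`-stabilizer exactly `Q`. -/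
theorem stab_eq {P : Subgroup G} {γ δ : Ω} (hγ : Mx P γ) (hδ : δ ∈ UU P γ) (h : ¬ Fx P δ) :
    P ⊓ MulAction.stabilizer G δ = P ⊓ MulAction.stabilizer G γ :=
  stab_eq' hγ (fx_UU hδ) h

/-- Let `R = P ⊓ M > Q` (normalizer condition in the `p`-group `P`), `T ≥ R` Sylow in `M`, `T ≤ P'` Sylow in `G`.
For `δ` fixed by `Q`: `Fx T δ → Fx R δ → Fx P δ` (else `P_δ = Q` by maximality).  Points fixed by `P'` are fixed
by `Q` and `T`, hence by `P`; equal numbers (`nf_conj` with `K = ⊤`) give `Fix P' = Fix P`.  So on `UU P γ`: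
`Fx T δ ↔ Fx P δ`.  Also (second part) an element `x ∈ T`, `x ∉ Q` fixing a `Q`-fixed point `δ` forces `Fx P δ`
(maximality for the conjugate `P'` of `P`). -/
theorem exists_T (P : Sylow p G) {γ : Ω} (hγ : Mx (P : Subgroup G) γ) :
    ∃ T : Sylow p (NN (P : Subgroup G) γ),
      (∀ δ : Ω, Fx ((P : Subgroup G) ⊓ MulAction.stabilizer G γ) δ →
        (Fx ((T : Subgroup (NN (P : Subgroup G) γ)).map (NN (P : Subgroup G) γ).subtype) δ ↔ Fx (P : Subgroup G) δ)) ∧
      ∀ δ : Ω, Fx ((P : Subgroup G) ⊓ MulAction.stabilizer G γ) δ →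
        ∀ x ∈ (T : Subgroup (NN (P : Subgroup G) γ)).map (NN (P : Subgroup G) γ).subtype,
          x ∉ (P : Subgroup G) ⊓ MulAction.stabilizer G γ → x • δ = δ → Fx (P : Subgroup G) δ := by
  obtain ⟨y, hyP, hyM, hyQ⟩ := exists_norm (Q := (P : Subgroup G) ⊓ MulAction.stabilizer G γ)
    P.isPGroup' inf_le_left fun h => hγ.1 (h.trans inf_le_right)
  obtain ⟨T, hT⟩ := (P.isPGroup'.comap_subtype (K := NN (P : Subgroup G) γ)).exists_le_sylow
  obtain ⟨P', hP'⟩ := (T.isPGroup'.map (NN (P : Subgroup G) γ).subtype).exists_le_sylow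
  have hR : ∀ x ∈ (P : Subgroup G), x ∈ NN (P : Subgroup G) γ →
      x ∈ (T : Subgroup (NN (P : Subgroup G) γ)).map (NN (P : Subgroup G) γ).subtype :=
    fun x hx hx' => ⟨⟨x, hx'⟩, hT hx, rfl⟩
  have hQT : (P : Subgroup G) ⊓ MulAction.stabilizer G γ ≤
      (T : Subgroup (NN (P : Subgroup G) γ)).map (NN (P : Subgroup G) γ).subtype :=
    fun x hx => hR x hx.1 (Subgroup.le_normalizer hx)
  have h1 : ∀ δ : Ω, Fx ((P : Subgroup G) ⊓ MulAction.stabilizer G γ) δ →
      Fx ((T : Subgroup (NN (P : Subgroup G) γ)).map (NN (P : Subgroup G) γ).subtype) δ →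
      Fx (P : Subgroup G) δ := by
    intro δ hδ hδ'
    by_contra hn
    apply hyQ
    rw [← stab_eq' hγ hδ hn]
    exact ⟨hyP, hδ' y (hR y hyP hyM)⟩
  have h2 : Finset.univ.filter (Fx (Ω := Ω) (P' : Subgroup G)) =
      Finset.univ.filter (Fx (P : Subgroup G)) := by
    refine Finset.eq_of_subset_of_card_le (fun δ hδ => ?_) ?_
    · rw [Finset.mem_filter] at hδ ⊢
      exact ⟨hδ.1, h1 δ (hδ.2.mono (hQT.trans hP')) (hδ.2.mono hP')⟩
    · exact (nf_conj (K := ⊤) (O := Finset.univ) (fun _ _ _ _ => Finset.mem_univ _)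
        (P := P) (Q := P') le_top le_top).le
  have h3 : ∀ δ : Ω, Fx (P' : Subgroup G) δ ↔ Fx (P : Subgroup G) δ := fun δ => by
    simpa using Finset.ext_iff.1 h2 δ
  refine ⟨T, fun δ hδ => ⟨h1 δ hδ, fun h => ((h3 δ).2 h).mono hP'⟩, fun δ hδ x hx hxQ hxδ => ?_⟩
  by_contra hn
  rw [← h3] at hn
  obtain ⟨g, rfl⟩ := MulAction.exists_smul_eq G P P'
  rw [← smul_inv_smul g δ, Fx_smul] at hn
  have h4 := hγ.2 _ hn
  rw [← card_stab_smul g, smul_inv_smul] at h4
  have h5 := Subgroup.eq_of_le_of_card_ge (le_inf (hQT.trans hP') hδ) h4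
  apply hxQ
  rw [h5]
  exact ⟨hP' hx, hxδ⟩

/-- If `P` fixes a point, `UU P γ` contains a fixed point: `γ` is fixed by a Sylow `P'' ≥ Q` of `G`
(`G_γ` contains a Sylow subgroup of `G`), `P'' ⊓ M > Q`; conjugate it into `T` by `m ∈ M`; then `m • γ`
is fixed by an element of `T \\ Q`. -/
theorem exists_fixed [MulAction.IsPretransitive G Ω] (P : Sylow p G) {γ α : Ω}
    (hγ : Mx (P : Subgroup G) γ) (hα : Fx (P : Subgroup G) α) :
    ∃ δ ∈ UU (P : Subgroup G) γ, Fx (P : Subgroup G) δ := by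
  obtain ⟨T, -, hT⟩ := exists_T P hγ
  obtain ⟨g, hg⟩ := MulAction.exists_smul_eq G α γ
  have h1 : ((g • P : Sylow p G) : Subgroup G) ≤ MulAction.stabilizer G γ := by
    rw [← hg]; exact (Fx_smul g P α).2 hα
  obtain ⟨P', hQ, hP'⟩ := exists_sylow_le (Q := (P : Subgroup G) ⊓ MulAction.stabilizer G γ) h1
    (P.isPGroup'.to_le inf_le_left) inf_le_right
  obtain ⟨x, hxP, hxM, hxQ⟩ := exists_norm P'.isPGroup' hQ fun h => by
    have h2 : Nat.card (P : Subgroup G) ≤ Nat.card (P' : Subgroup G) := by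
      rw [P.card_eq_multiplicity, P'.card_eq_multiplicity]
    have h3 := Subgroup.eq_of_le_of_card_ge (h.trans inf_le_left) h2
    exact hγ.1 (h3 ▸ hP')
  obtain ⟨S, hS⟩ := (P'.isPGroup'.comap_subtype (K := NN (P : Subgroup G) γ)).exists_le_sylow
  obtain ⟨m, hm⟩ := MulAction.exists_smul_eq (NN (P : Subgroup G) γ) S T
  have hδ : (m : G) • γ ∈ UU (P : Subgroup G) γ := smul_mem_orb m.2 γ
  refine ⟨_, hδ, hT _ (fx_UU hδ) (m * x * (m : G)⁻¹) ?_ ?_ ?_⟩
  · refine ⟨m * ⟨x, hxM⟩ * m⁻¹, ?_, rfl⟩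
    rw [← hm]
    refine (mem_smul_sylow m S _).2 ?_
    have : (⟨x, hxM⟩ : NN (P : Subgroup G) γ) ∈ (S : Subgroup _) := hS hxP
    simpa [mul_assoc] using this
  · exact fun h => hxQ ((Subgroup.mem_normalizer_iff.1 m.2 x).2 h)
  · have : x • γ = γ := hP' hxP
    rw [mul_smul, mul_smul, inv_smul_smul, this]

/-- `N(P)` is transitive on the fixed points of `P` (`conj` inside the stabilizer) and permutes the sets
`UU P γ`, so these cover the fixed points. -/
theorem cover [MulAction.IsPretransitive G Ω] (P : Sylow p G) {γ α : Ω}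
    (hγ : Mx (P : Subgroup G) γ) (hα : Fx (P : Subgroup G) α) :
    ∃ γ' : Ω, Mx (P : Subgroup G) γ' ∧ α ∈ UU (P : Subgroup G) γ' := by
  obtain ⟨δ, hδ, hfx⟩ := exists_fixed P hγ hα
  obtain ⟨g, hg⟩ := MulAction.exists_smul_eq G δ α
  have h1 : ((g • P : Sylow p G) : Subgroup G) ≤ MulAction.stabilizer G α := by
    rw [← hg]; exact (Fx_smul g P δ).2 hfx
  obtain ⟨h, hh, e⟩ := conj h1 (Q := P) hα
  rw [← mul_smul] at e
  have e' : (h * g) • δ = α := by rw [mul_smul, hg]; exact hh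
  generalize h * g = n at e e'
  refine ⟨n • γ, ⟨fun h => hγ.1 ((Fx_smul n P γ).1 (by rwa [e])), fun ε hε => ?_⟩, ?_⟩
  · have := card_stab_smul n P γ
    rw [e] at this
    rw [this]
    exact hγ.2 ε hε
  · obtain ⟨m, hm, rfl⟩ := mem_orb.1 hδ
    refine mem_orb.2 ⟨n * m * n⁻¹, ?_, by rw [mul_smul, inv_smul_smul, mul_smul, e']⟩
    have := stab_smul n P γ
    rw [e] at this
    rw [NN, this]
    exact Subgroup.le_normalizer_map _ ⟨m, hm, rfl⟩

/-- Summation: the sets `U ∈ J = {UU P γ | Mx P γ}` cover the fixed points, their moved parts are pairwise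
disjoint (`stab_eq`, `orb_eq`), so `p f ≤ ∑ p f_U ≤ ∑ (p-1) s_U ≤ (p-1) s`. -/
theorem sum_case [MulAction.IsPretransitive G Ω] (P : Sylow p G) {γ : Ω}
    (hγ : Mx (P : Subgroup G) γ)
    (h : ∀ γ' : Ω, Mx (P : Subgroup G) γ' → 0 ≤ ee p (P : Subgroup G) (UU (P : Subgroup G) γ')) :
    0 ≤ ee p (P : Subgroup G) (Finset.univ : Finset Ω) := by
  let J : Finset (Finset Ω) := (Finset.univ.filter (Mx (P : Subgroup G))).image (UU (P : Subgroup G))
  have hJ : ∀ U, U ∈ J ↔ ∃ γ', Mx (P : Subgroup G) γ' ∧ UU (P : Subgroup G) γ' = U := by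
    intro U; simp [J]
  have h1 : nf (P : Subgroup G) (Finset.univ : Finset Ω) ≤ ∑ U ∈ J, nf (P : Subgroup G) U := by
    refine le_trans (Finset.card_le_card fun α hα => ?_)
      (Finset.card_biUnion_le (s := J) (t := fun U => U.filter (Fx (P : Subgroup G))))
    rw [Finset.mem_filter] at hα
    obtain ⟨γ', h1, h2⟩ := cover P hγ hα.2
    exact Finset.mem_biUnion.2 ⟨_, (hJ _).2 ⟨γ', h1, rfl⟩, Finset.mem_filter.2 ⟨h2, hα.2⟩⟩
  have h2 : ∑ U ∈ J, ns (P : Subgroup G) U ≤ ns (P : Subgroup G) (Finset.univ : Finset Ω) := by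
    have hd : (J : Set (Finset Ω)).PairwiseDisjoint
        fun U => U.filter fun δ => ¬ Fx (P : Subgroup G) δ := by
      intro U hU V hV hUV
      obtain ⟨a, ha, rfl⟩ := (hJ U).1 hU
      obtain ⟨b, hb, rfl⟩ := (hJ V).1 hV
      refine Finset.disjoint_left.2 fun δ h1 h2 => hUV ?_
      rw [Finset.mem_filter] at h1 h2
      have e : NN (P : Subgroup G) a = NN (P : Subgroup G) b := by
        rw [NN, NN, ← stab_eq ha h1.1 h1.2, ← stab_eq hb h2.1 h2.2]
      have e1 := orb_eq h1.1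
      have e2 := orb_eq h2.1
      rw [UU, UU, ← e1, ← e2, e]
    refine le_trans (Finset.card_biUnion hd).ge (Finset.card_le_card fun δ hδ => ?_)
    obtain ⟨U, -, hU⟩ := Finset.mem_biUnion.1 hδ
    exact Finset.mem_filter.2 ⟨Finset.mem_univ _, (Finset.mem_filter.1 hU).2⟩
  have h3 : 0 ≤ ∑ U ∈ J, ee p (P : Subgroup G) U := Finset.sum_nonneg fun U hU => by
    obtain ⟨a, ha, rfl⟩ := (hJ U).1 hU
    exact h a ha
  simp only [ee, Finset.sum_sub_distrib, ← Finset.mul_sum] at h3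
  have h4 : (1 : ℤ) ≤ p := by exact_mod_cast hp.out.one_le
  have h1' : (nf (P : Subgroup G) (Finset.univ : Finset Ω) : ℤ) ≤
      ∑ U ∈ J, (nf (P : Subgroup G) U : ℤ) := by exact_mod_cast h1
  have h2' : ∑ U ∈ J, (ns (P : Subgroup G) U : ℤ) ≤
      ns (P : Subgroup G) (Finset.univ : Finset Ω) := by exact_mod_cast h2
  rw [ee]
  nlinarith

/-- Strong induction on `n`.  Take `γ` with `Mx P γ`.  If for some such `γ` the group `Q = P_γ` fixes all points,
then `Q ≤ P_δ`, so `P_δ = Q` for all moved `δ` and `triv_case` applies.  Otherwise each `UU P γ'` is a proper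
subset, and `exists_T`, `orb_case`, `sum_case` apply. -/
theorem tg_of_ts (hTS : TS.{u} p) (n : ℕ) : TG.{u} p n := by
  induction n using Nat.strong_induction_on with
  | _ n ih =>
  intro G _ _ Ω _ _ _ P hn hs
  by_cases h : ∃ γ : Ω, Mx (P : Subgroup G) γ ∧
      ∀ δ : Ω, Fx ((P : Subgroup G) ⊓ MulAction.stabilizer G γ) δ
  · obtain ⟨γ, hγ, h⟩ := h
    refine triv_case hTS P (fun x hx β hβ e δ => h δ x ?_) hs
    rw [← stab_eq' hγ (h β) hβ]
    exact ⟨hx, e⟩
  push Not at h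
  obtain ⟨γ, hγ, hmax⟩ := Finset.exists_max_image
    (Finset.univ.filter fun δ : Ω => ¬ Fx (P : Subgroup G) δ)
    (fun δ => Nat.card ((P : Subgroup G) ⊓ MulAction.stabilizer G δ : Subgroup G))
    (Finset.card_pos.1 hs)
  refine sum_case P (γ := γ) ⟨(Finset.mem_filter.1 hγ).2, fun δ hδ =>
    hmax δ (Finset.mem_filter.2 ⟨Finset.mem_univ _, hδ⟩)⟩ fun β hβ => ?_
  obtain ⟨T, hT, -⟩ := exists_T P hβ
  obtain ⟨δ, hδ⟩ := h β hβ
  obtain ⟨e1, e2⟩ := top_ee_congr (p := p) (O := UU (P : Subgroup G) β)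
    fun ε hε => hT ε (fx_UU hε)
  rw [← e2]
  refine orb_case _ T β (ih _ ?_) ?_
  · rw [← hn]
    exact Finset.card_lt_univ_of_notMem (x := δ) fun h' => hδ (fx_UU h')
  · change 0 < ns _ (UU (P : Subgroup G) β)
    rw [e1]
    exact ns_pos_iff.2 ⟨β, self_mem_orb _ β, hβ.1⟩

/-- The statement: `Ω = G ⧸ H`, `dc` with `K = ⊤`, `γ = 1`; `A p ⊤ γ = {Q | Q ≤ H} ≃ Sylow p H`; `P` moves a point
(else every Sylow subgroup fixes `γ`, so `H` contains all `p`-elements). -/
theorem final (hTG : ∀ n, TG.{u} p n)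
    (hgen : Subgroup.closure {g : G | ∃ k : ℕ, orderOf g = p ^ k} = ⊤)
    (H : Subgroup G) (hH : H ≠ ⊤) (P : Sylow p G) (hP : (P : Subgroup G) ≤ H) :
    (2 * p - 1) * Nat.card (Sylow p ↥H) ≤ (p - 1) * Nat.card (Sylow p G) := by
  letI : Fintype (G ⧸ H) := Fintype.ofFinite _
  have ho : orb (⊤ : Subgroup G) ((1 : G) : G ⧸ H) = Finset.univ := by
    refine Finset.eq_univ_of_forall fun δ => ?_
    obtain ⟨g, hg⟩ := MulAction.exists_smul_eq G ((1 : G) : G ⧸ H) δ
    exact mem_orb.2 ⟨g, trivial, hg⟩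
  have hfx : ∀ Q : Subgroup G, Fx Q ((1 : G) : G ⧸ H) ↔ Q ≤ H := fun Q => by
    rw [Fx_iff_le, MulAction.stabilizer_quotient]
  have hs : 0 < ns (P : Subgroup G) (Finset.univ : Finset (G ⧸ H)) := by
    rw [← ho]
    refine ns_pos (fun x _ => ?_) le_top fun h => hH (top_le_iff.1 ((hfx _).1 h))
    have : x ∈ Subgroup.closure {g : G | ∃ k : ℕ, orderOf g = p ^ k} := hgen ▸ trivial
    refine (Subgroup.closure_le _).2 ?_ this
    rintro g ⟨k, hk⟩
    obtain ⟨Q, hQ⟩ := (IsPGroup.of_card (G := Subgroup.zpowers g) (n := k)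
      (by rw [Nat.card_zpowers, hk])).exists_le_sylow
    exact le_gen (S := X p ⊤) (Q := Q) (le_top (a := (Q : Subgroup G))) (hQ (Subgroup.mem_zpowers g))
  have h1 := hTG _ G (G ⧸ H) P rfl hs
  have h2 := dc (K := ⊤) (P := P) le_top ((1 : G) : G ⧸ H)
  have hX : (X p (⊤ : Subgroup G)).ncard = Nat.card (Sylow p G) := by
    rw [← Set.ncard_univ]
    congr 1
    exact Set.eq_univ_of_forall fun Q => le_top (a := (Q : Subgroup G))
  have hA : (A p (⊤ : Subgroup G) ((1 : G) : G ⧸ H)).ncard = Nat.card (Sylow p H) := by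
    rw [← Nat.card_coe_set_eq]
    refine Nat.card_congr (Equiv.ofBijective
      (fun Q => Q.1.subtype ((hfx _).1 Q.2.2)) ⟨fun Q R e => ?_, fun S => ?_⟩)
    · exact Subtype.ext (Sylow.subtype_injective e)
    · obtain ⟨k, hk⟩ := MulAction.exists_smul_eq H (P.subtype hP) S
      refine ⟨⟨(k : G) • P, le_top, (hfx _).2 ((smul_le k.2 P).2 hP)⟩, ?_⟩
      rw [← hk, Sylow.smul_subtype]
      rfl
  rw [hX, hA, ho, ← nf_add_ns (P : Subgroup G)] at h2
  rw [ee] at h1
  obtain ⟨q, rfl⟩ : ∃ q, p = q + 1 := ⟨p - 1, by have := hp.out.pos; omega⟩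
  generalize nf (P : Subgroup G) (Finset.univ : Finset (G ⧸ H)) = f at h1 h2
  generalize ns (P : Subgroup G) (Finset.univ : Finset (G ⧸ H)) = s at h1 h2 hs
  generalize Nat.card (Sylow (q + 1) G) = N at h2 ⊢
  generalize Nat.card (Sylow (q + 1) H) = a at h2 ⊢
  have h3 : (q + 1) * f ≤ q * s := by
    push_cast at h1
    have : ((q : ℤ) + 1) * f ≤ q * s := by linarith
    exact_mod_cast this
  have e1 : 2 * (q + 1) - 1 = 2 * q + 1 := by omega
  rw [e1, Nat.add_sub_cancel]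
  refine Nat.le_of_mul_le_mul_left (c := f + s) ?_ (by omega)
  calc (f + s) * ((2 * q + 1) * a) = (2 * q + 1) * ((f + s) * a) := by ring
    _ = ((q + 1) * f + q * f) * N := by rw [← h2]; ring
    _ ≤ (q * s + q * f) * N := Nat.mul_le_mul_right _ (by omega)
    _ = (f + s) * (q * N) := by ring

end Cfsg.Lib.SyR
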