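import Cfsg.Agent.Lib.SyR.NN
import Cfsg.Agent.Lib.SyR.Geo
import Cfsg.Agent.Lib.SyR.Top

/-! The main induction and the semiregular case of the Sylow ratio theorem. -/

set_option autoImplicit false
open Pointwise
open scoped Classical

namespace Cfsg.Lib.SyR

universe u

variable {G : Type u} [Group G] [Finite G] {p : ℕ} [hp : Fact p.Prime]

theorem mi_step (hq : ∀ P : Sylow p G, Nat.card P = p) (h3 : 3 ≤ p) (K : Subgroup G)
    (ih : ∀ M < K, MI p M) : MI p K := by
  intro Ω _ _ P α0 Z hK hP hr hZ hu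
  obtain ⟨α, hαZ, hαP⟩ := hu P hP
  have hα0 := hZ hαZ
  rw [← orb_eq hα0] at hr hZ ⊢
  clear hα0 α0
  obtain ⟨Q, hQ⟩ := hr.1 α (self_mem_orb K α)
  rw [nf_conj (orb_inv K α) hP hQ.1, ns_conj (orb_inv K α) hP hQ.1, ee_conj (orb_inv K α) hP hQ.1]
  have hαK : ¬ Fx K α := fun h => hαP (h.mono hP)
  clear hαP hP P
  set L := St p K α with hL
  have hLK : L < K := lt_of_le_of_ne (St_le K α) fun h => hαK (h ▸ St_fx K α)
  have hMI : ∀ M ≤ L, MI p M := fun M hM => ih M (lt_of_le_of_lt hM hLK)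
  have hQL : (Q : Subgroup G) ≤ L := le_St.2 hQ
  have hLg : Good p L := St_good K α
  have hαO := self_mem_orb K α
  set O' := (orb K α).erase α with hO'
  have hI : Inv L O' := ((orb_inv K α).mono (St_le K α)).erase (St_fx K α)
  have hn : ∀ γ ∈ O', ¬ Fx L γ := fun γ hγ => hr.not_Fx hαO hγ
  have hZ' : Z.erase α ⊆ O' := Finset.erase_subset_erase α hZ
  have hu' : Unf p L (Z.erase α) := by
    intro R hR
    obtain ⟨γ, hγ, h⟩ := hu R (hR.trans (St_le K α))
    exact ⟨γ, Finset.mem_erase.2 ⟨fun e => h (e ▸ (St_fx K α).mono hR), hγ⟩, h⟩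
  have c1 : (Z.erase α).card + 1 = Z.card := Finset.card_erase_add_one hαZ
  have c2 : nf (Q : Subgroup G) O' + 1 = _ := nf_erase hαO hQ.2
  have c3 : ns (Q : Subgroup G) O' = _ := ns_erase hαO hQ.2
  obtain ⟨β, hβ, -⟩ := hu' Q hQL
  have c4 : 0 < (Z.erase α).card := Finset.card_pos.2 ⟨β, hβ⟩
  refine ⟨fun hs => ?_, fun hs => ?_⟩
  · have ho := orb_eq_of_ns hq hLg hQL hI hn (by omega) (hZ' hβ)
    by_cases h0 : 0 < nf (Q : Subgroup G) O'
    · have hr' := t1_red hq hLg hQL (α := β) ((A_nonempty_iff hQL).2 (by rw [ho]; exact h0))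
        (by rw [ho]; omega)
      have := (hMI L le_rfl Ω Q β (Z.erase α) hLg hQL hr' (by rw [ho]; exact hZ') hu').1
        (by rw [ho]; omega)
      rw [ho] at this
      omega
    · omega
  have e : ee p (Q : Subgroup G) (orb K α) = ee p (Q : Subgroup G) O' - p := by
    rw [ee, ee, c3, ← c2]; push_cast; ring
  suffices h : (p : ℤ) * (2 * p - 3 - (Z.erase α).card) ≤ ee p (Q : Subgroup G) O' by
    rw [e, ← c1]; push_cast; linarith
  by_cases h1 : ∃ γ ∈ O', orb L γ = O' ∧ Red p L O'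
  · obtain ⟨γ, -, ho, hr'⟩ := h1
    have := (hMI L le_rfl Ω Q γ (Z.erase α) hLg hQL (by rw [ho]; exact hr')
      (by rw [ho]; exact hZ') hu').2 (by rw [ho]; omega)
    rwa [ho] at this
  by_cases h2 : ∀ γ ∈ O', (A p L γ).Nonempty → ns (Q : Subgroup G) (orb L (A p L γ)) = p →
      nf (Q : Subgroup G) (orb L (A p L γ)) ≤ 2
  · exact fin_na hq h3 hMI hLg hQL hI hn (by omega) (fun γ hγ h => h1 ⟨γ, hγ, h⟩) h2 hZ' hu'
  push Not at h2
  obtain ⟨b, hb, hne, hs1, hf1⟩ := h2
  by_cases h4 : ∀ γ ∈ O', A p L γ ∈ orb L (A p L b)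
  · have := geo hq hQ hb hne hs1 hf1.le h4
    omega
  push Not at h4
  obtain ⟨γ, hγ, h4⟩ := h4
  have b1 := nonnat hq h3 hMI hLg hQL hs1 hf1 (hn γ hγ) fun u hu e => h4 (by
    rw [e, A_of_mem_orb_A hne hu]; exact hu)
  have e1 := ee_sdiff (p := p) (Q : Subgroup G) (orb_subset hI hγ)
  have b2 := tnn_inv hq h3 (hMI L le_rfl) hLg hQL (hI.sdiff (orb_inv L γ))
    fun ε hε => hn ε (Finset.mem_sdiff.1 hε).1
  have c5 : (1 : ℤ) ≤ (Z.erase α).card := by exact_mod_cast c4
  have hp0 : (0 : ℤ) ≤ p := Int.natCast_nonneg _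
  nlinarith

theorem mi_all (hq : ∀ P : Sylow p G, Nat.card P = p) (h3 : 3 ≤ p) (K : Subgroup G) : MI p K := by
  induction K using WellFoundedLT.induction with
  | ind K ih => exact mi_step hq h3 K ih

variable {Ω : Type u} [MulAction G Ω] [Fintype Ω]

omit [Fintype Ω] in
theorem not_Fx_gen_top [MulAction.IsPretransitive G Ω] {P : Sylow p G} {δ : Ω}
    (h : ¬ Fx (P : Subgroup G) δ) (γ : Ω) : ¬ Fx (gen (Set.univ : Set (Sylow p G))) γ := by
  intro hγ
  obtain ⟨g, rfl⟩ := MulAction.exists_smul_eq G δ γ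
  exact h ((Fx_smul g P δ).1 (Fx_gen.1 hγ _ trivial))

theorem ts (p : ℕ) [hp : Fact p.Prime] : TS.{u} p := by
  intro G _ _ Ω _ _ _ P hsr hs
  obtain ⟨δ, -, hδ⟩ := ns_pos_iff.1 hs
  obtain ⟨n, hn⟩ := P.isPGroup'.exists_card_eq
  have hcard : ∀ Q : Sylow p G, Nat.card Q = p ^ n := fun Q => by
    rw [← hn]; exact Nat.card_congr (Sylow.equiv Q P).toEquiv
  have hPK : (P : Subgroup G) ≤ gen (Set.univ : Set (Sylow p G)) := le_gen trivial
  have hI : Inv (gen (Set.univ : Set (Sylow p G))) (Finset.univ : Finset Ω) :=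
    fun _ _ _ _ => Finset.mem_univ _
  have h2 := hp.out.two_le
  rcases (by omega : n = 0 ∨ n = 1 ∨ 2 ≤ n) with rfl | rfl | h
  · exfalso
    have : (P : Subgroup G) = ⊥ := Subgroup.card_eq_one.1 (by simpa using hn)
    exact hδ fun x hx => by rw [this, Subgroup.mem_bot] at hx; rw [hx, one_smul]
  · simp only [pow_one] at hcard
    by_cases h3 : 3 ≤ p
    · exact tnn_inv hcard h3 (mi_all hcard h3 _) (good_gen _) hPK hI
        fun γ _ => not_Fx_gen_top hδ γ
    obtain rfl : p = 2 := by omega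
    by_cases h0 : 0 < nf (P : Subgroup G) (Finset.univ : Finset Ω)
    swap
    · have : nf (P : Subgroup G) (Finset.univ : Finset Ω) = 0 := by omega
      rw [ee, this]; simp
    obtain ⟨γ, -, hγ⟩ := nf_pos_iff.1 h0
    have hcyc : IsCyclic P := isCyclic_of_prime_card (hcard P)
    have hmin : (Nat.card G).minFac = 2 := by
      rw [Nat.minFac_eq_two_iff, ← hcard P]
      exact Subgroup.card_subgroup_dvd_card _
    have hc := hcyc.isComplement' hmin
    set N := (MonoidHom.transferSylow P (hcyc.normalizer_le_centralizer hmin)).ker with hN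
    have ho : orb N γ = Finset.univ := by
      rw [Finset.eq_univ_iff_forall]
      intro ε
      obtain ⟨g, rfl⟩ := MulAction.exists_smul_eq G γ ε
      obtain ⟨⟨x, y⟩, rfl⟩ := hc.2 g
      exact mem_orb.2 ⟨x, x.2, by simp only [mul_smul]; rw [hγ y y.2]⟩
    have := pn (p := 2) (P : Subgroup G) N (hcard P)
      (by rw [Subgroup.normalizer_eq_top]; exact le_top)
      (by rw [← hc.index_eq_card]; exact P.not_dvd_index) γ
      (by rw [ho]; exact fun _ _ _ _ => Finset.mem_univ _) (by rw [ho]; exact hs)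
    rw [ho] at this
    rw [ee]
    push_cast
    omega
  · refine ee_nonneg_of_orb _ _ _ hI fun γ _ => ?_
    have hw := weak _ Ω P γ (good_gen _) hPK
      (fun Q _ x hx h1 ε _ => hsr Q le_top x hx h1 ε (Finset.mem_univ _)) (not_Fx_gen_top hδ γ)
    rw [hn] at hw
    have h4 : p * p ≤ p ^ n := by rw [← pow_two]; exact Nat.pow_le_pow_right hp.out.pos h
    set f := nf (P : Subgroup G) (orb (gen (Set.univ : Set (Sylow p G))) γ) with hf
    set s := ns (P : Subgroup G) (orb (gen (Set.univ : Set (Sylow p G))) γ) with hs'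
    have h5 : p * f ≤ s := by
      refine Nat.le_of_mul_le_mul_left ?_ hp.out.pos
      have := Nat.mul_le_mul_right (f + 1) h4
      nlinarith
    have h6 : (p : ℤ) * f ≤ s := by exact_mod_cast h5
    have h7 : (2 : ℤ) ≤ p := by exact_mod_cast h2
    have h8 : (0 : ℤ) ≤ s := Int.natCast_nonneg _
    rw [ee, ← hf, ← hs']
    nlinarith

theorem main (hgen : Subgroup.closure {g : G | ∃ k : ℕ, orderOf g = p ^ k} = ⊤)
    (H : Subgroup G) (hH : H ≠ ⊤) (P : Sylow p G) (hP : (P : Subgroup G) ≤ H) :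
    (2 * p - 1) * Nat.card (Sylow p ↥H) ≤ (p - 1) * Nat.card (Sylow p G) :=
  final (tg_of_ts (ts p)) hgen H hH P hP

end Cfsg.Lib.SyR
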