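import Cfsg.Agent.Lib.SyR.Red

/-! Consequences of the inductive claim and the non-alternating final case. -/

set_option autoImplicit false
open Pointwise
open scoped Classical

namespace Cfsg.Lib.SyR

universe u

variable {G : Type u} [Group G] [Finite G] {Ω : Type u} [MulAction G Ω] [Fintype Ω] {p : ℕ}
  [hp : Fact p.Prime]

theorem unit_red (hq : ∀ P : Sylow p G, Nat.card P = p) {L : Subgroup G} (hMI : MI p L)
    (hL : Good p L) {P : Sylow p G} (hP : (P : Subgroup G) ≤ L) {α : Ω} (hr : Red p L (orb L α))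
    (hα : ¬ Fx L α) :
    (ns (P : Subgroup G) (orb L α) = p ∧ nf (P : Subgroup G) (orb L α) + 1 ≤ p) ∨
      (p < ns (P : Subgroup G) (orb L α) ∧
        (p : ℤ) * (p - 3) ≤ ee p (P : Subgroup G) (orb L α)) := by
  obtain ⟨γ, hγ, hm⟩ := ns_pos_iff.1 (ns_pos hL hP hα)
  have h := hMI Ω P α (orb (P : Subgroup G) γ) hL hP hr
    (orb_subset ((orb_inv L α).mono hP) hγ) (unf_orb L P hm)
  rw [card_orb_prime (hq P) hm] at h
  rcases (le_ns hq hL hP hα).eq_or_lt with h1 | h1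
  · exact Or.inl ⟨h1.symm, h.1 h1.symm⟩
  · refine Or.inr ⟨h1, ?_⟩
    have := h.2 h1
    linarith

theorem ebar_nonneg (hq : ∀ P : Sylow p G, Nat.card P = p) (h3 : 3 ≤ p) {L : Subgroup G}
    (hMI : MI p L) (hL : Good p L) {P : Sylow p G} (hP : (P : Subgroup G) ≤ L) {γ : Ω}
    (hne : (A p L γ).Nonempty) (hγ : ¬ Fx L γ) :
    0 ≤ ee p (P : Subgroup G) (orb L (A p L γ)) := by
  have h3' : (3 : ℤ) ≤ p := by exact_mod_cast h3
  rcases unit_red hq hMI hL hP (red_A hne) (not_Fx_A hL hne hγ) with ⟨h1, h2⟩ | ⟨-, h2⟩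
  · rw [ee, h1]
    have : (nf (P : Subgroup G) (orb L (A p L γ)) : ℤ) + 1 ≤ p := by exact_mod_cast h2
    nlinarith
  · nlinarith

theorem ee_of_empty (hq : ∀ P : Sylow p G, Nat.card P = p) {L : Subgroup G}
    (hL : Good p L) {P : Sylow p G} (hP : (P : Subgroup G) ≤ L) {γ : Ω}
    (hne : ¬ (A p L γ).Nonempty) (hγ : ¬ Fx L γ) :
    (p : ℤ) * (p - 1) ≤ ee p (P : Subgroup G) (orb L γ) := by
  rw [A_nonempty_iff hP] at hne
  have h1 : nf (P : Subgroup G) (orb L γ) = 0 := by omega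
  have h2 : (p : ℤ) ≤ ns (P : Subgroup G) (orb L γ) := by exact_mod_cast le_ns hq hL hP hγ
  have h3 : (1 : ℤ) ≤ p := by exact_mod_cast hp.out.one_lt.le
  rw [ee, h1]
  push_cast
  nlinarith

/-- The theorem for a nontrivial orbit of `L`. -/
theorem tnn (hq : ∀ P : Sylow p G, Nat.card P = p) (h3 : 3 ≤ p) {L : Subgroup G}
    (hMI : MI p L) (hL : Good p L) {P : Sylow p G} (hP : (P : Subgroup G) ≤ L) {γ : Ω}
    (hγ : ¬ Fx L γ) : 0 ≤ ee p (P : Subgroup G) (orb L γ) := by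
  by_cases hne : (A p L γ).Nonempty
  · rw [ee_fib hne hP]
    exact mul_nonneg (Int.natCast_nonneg _) (ebar_nonneg hq h3 hMI hL hP hne hγ)
  · have h3' : (3 : ℤ) ≤ p := by exact_mod_cast h3
    have := ee_of_empty hq hL hP hne hγ
    nlinarith

theorem tnn_inv (hq : ∀ P : Sylow p G, Nat.card P = p) (h3 : 3 ≤ p) {L : Subgroup G}
    (hMI : MI p L) (hL : Good p L) {P : Sylow p G} (hP : (P : Subgroup G) ≤ L) {O : Finset Ω}
    (hO : Inv L O) (hn : ∀ γ ∈ O, ¬ Fx L γ) : 0 ≤ ee p (P : Subgroup G) O :=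
  ee_nonneg_of_orb _ L O hO fun γ hγ => tnn hq h3 hMI hL hP (hn γ hγ)

/-- The orbit of `γ` has reduced deficiency at least `k`. -/
def Big (p : ℕ) (k : ℤ) (P : Sylow p G) (L : Subgroup G) (γ : Ω) : Prop :=
  (A p L γ).Nonempty → (p : ℤ) * k ≤ ee p (P : Subgroup G) (orb L (A p L γ))

theorem ee_of_big (hq : ∀ P : Sylow p G, Nat.card P = p) {L : Subgroup G}
    (hL : Good p L) {P : Sylow p G} (hP : (P : Subgroup G) ≤ L) {γ : Ω} (hγ : ¬ Fx L γ) {k : ℤ}
    (hk0 : 0 ≤ k) (hk : k ≤ p - 1) (h : Big p k P L γ) :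
    (p : ℤ) * k ≤ ee p (P : Subgroup G) (orb L γ) := by
  have hp0 : (0 : ℤ) ≤ p := Int.natCast_nonneg _
  by_cases hne : (A p L γ).Nonempty
  · rw [ee_fib hne hP]
    have h1 : (1 : ℤ) ≤ fib p L γ := by exact_mod_cast fib_pos (p := p) L γ
    have h2 := h hne
    have h3 := mul_nonneg hp0 hk0
    nlinarith
  · have := ee_of_empty hq hL hP hne hγ
    nlinarith

/-- No alternating orbit: every orbit has reduced deficiency at least `p - 3`. -/
theorem big_of_na (hq : ∀ P : Sylow p G, Nat.card P = p) {L : Subgroup G}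
    (hMI : MI p L) (hL : Good p L) {P : Sylow p G} (hP : (P : Subgroup G) ≤ L) {γ : Ω}
    (hγ : ¬ Fx L γ) (hna : (A p L γ).Nonempty → ns (P : Subgroup G) (orb L (A p L γ)) = p →
      nf (P : Subgroup G) (orb L (A p L γ)) ≤ 2) : Big p (p - 3) P L γ := by
  intro hne
  rcases unit_red hq hMI hL hP (red_A hne) (not_Fx_A hL hne hγ) with ⟨h1, -⟩ | ⟨-, h2⟩
  · rw [ee, h1]
    have : (nf (P : Subgroup G) (orb L (A p L γ)) : ℤ) ≤ 2 := by exact_mod_cast hna hne h1
    have hp0 : (0 : ℤ) ≤ p := Int.natCast_nonneg _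
    nlinarith
  · exact h2

theorem two_units (hq : ∀ P : Sylow p G, Nat.card P = p) (h3 : 3 ≤ p) {L : Subgroup G}
    (hMI : MI p L) (hL : Good p L) {P : Sylow p G} (hP : (P : Subgroup G) ≤ L) {O : Finset Ω}
    (hO : Inv L O) (hn : ∀ γ ∈ O, ¬ Fx L γ) (hs : p < ns (P : Subgroup G) O)
    (hb : ∀ γ ∈ O, Big p (p - 3) P L γ) {γ : Ω} (hγ : γ ∈ O)
    (hnr : ¬ (orb L γ = O ∧ Red p L O)) {k : ℤ} (hk0 : p - 3 ≤ k) (hk : k ≤ p - 1)
    (h : Big p k P L γ) : (p : ℤ) * (k + p - 3) ≤ ee p (P : Subgroup G) O := by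
  have h3' : (3 : ℤ) ≤ p := by exact_mod_cast h3
  by_cases ho : orb L γ = O
  · subst ho
    by_cases hne : (A p L γ).Nonempty
    · have h1 : fib p L γ ≠ 1 := fun h1 => hnr ⟨rfl, red_of_fib hne h1⟩
      have h2 := fib_pos (p := p) L γ
      have h4 : (2 : ℤ) ≤ fib p L γ := by exact_mod_cast (by omega : 2 ≤ fib p L γ)
      rw [ee_fib hne hP]
      have h5 := h hne
      have h6 : (0 : ℤ) ≤ p * k := mul_nonneg (by omega) (by omega)
      nlinarith
    · rw [A_nonempty_iff hP] at hne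
      have h1 : nf (P : Subgroup G) (orb L γ) = 0 := by omega
      obtain ⟨t, ht⟩ := dvd_ns (hq P) ((orb_inv L γ).mono hP)
      have h2 : 2 ≤ t := by
        by_contra h2
        have : t ≤ 1 := by omega
        have := Nat.mul_le_mul_left p this
        omega
      have h4 : (2 : ℤ) ≤ t := by exact_mod_cast h2
      rw [ee, h1, ht]
      push_cast
      have h5 : (0 : ℤ) ≤ p * (p - 1) * (t - 2) :=
        mul_nonneg (mul_nonneg (by omega) (by omega)) (by omega)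
      nlinarith
  · have hs1 := orb_subset hO hγ
    obtain ⟨δ, hδ, hδ'⟩ := Finset.exists_of_ssubset (Finset.ssubset_iff_subset_ne.2 ⟨hs1, ho⟩)
    have hI := hO.sdiff (orb_inv L γ)
    have hδ2 : δ ∈ O \ orb L γ := Finset.mem_sdiff.2 ⟨hδ, hδ'⟩
    have hs2 := orb_subset hI hδ2
    have e1 := ee_sdiff (p := p) (P : Subgroup G) hs1
    have e2 := ee_sdiff (p := p) (P : Subgroup G) hs2
    have b1 := ee_of_big hq hL hP (hn γ hγ) (by omega) hk h
    have b2 := ee_of_big hq hL hP (hn δ hδ) (by omega) (by omega) (hb δ hδ)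
    have b3 := tnn_inv hq h3 hMI hL hP (hI.sdiff (orb_inv L δ)) fun ε hε =>
      hn ε (Finset.mem_sdiff.1 (Finset.mem_sdiff.1 hε).1).1
    nlinarith

/-- Two points fixed by no common Sylow subgroup, the second in an orbit of small reduced deficiency. -/
theorem freq_lt (hq : ∀ P : Sylow p G, Nat.card P = p) (h3 : 3 ≤ p) {L : Subgroup G}
    (hMI : ∀ M ≤ L, MI p M) {P : Sylow p G} (hP : (P : Subgroup G) ≤ L) {γ γ' : Ω}
    (hne : (A p L γ).Nonempty) (hne' : (A p L γ').Nonempty) (hd : A p L γ ∩ A p L γ' = ∅)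
    (hs : ee p (P : Subgroup G) (orb L (A p L γ')) < p * (p - 2)) :
    (A p L γ).ncard < (A p L γ').ncard := by
  obtain ⟨Q, hQ⟩ := hne
  have h3' : (3 : ℤ) ≤ p := by exact_mod_cast h3
  set H := St p L γ with hH
  set U := orb L (A p L γ') with hU
  have hQH : (Q : Subgroup G) ≤ H := le_St.2 hQ
  have hUI : Inv H U := (orb_inv L _).mono (St_le L γ)
  set R := U.filter (Fx H) with hR
  have hRI : Inv H R := by
    intro g hg v hv
    rw [(Finset.mem_filter.1 hv).2 g hg]; exact hv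
  have hRU : R ⊆ U := Finset.filter_subset _ _
  have hmv : ∀ v ∈ U \ R, ¬ Fx H v := fun v hv h =>
    (Finset.mem_sdiff.1 hv).2 (Finset.mem_filter.2 ⟨(Finset.mem_sdiff.1 hv).1, h⟩)
  have hem : ¬ (A p H (A p L γ')).Nonempty := by
    rw [hH, A_St, A_A hne', hd]; exact Set.not_nonempty_empty
  have hv0 : ¬ Fx H (A p L γ') := fun h => hem ⟨Q, hQH, h.mono hQH⟩
  have hv1 : A p L γ' ∈ U \ R :=
    Finset.mem_sdiff.2 ⟨self_mem_orb _ _, fun h => hv0 (Finset.mem_filter.1 h).2⟩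
  have hI := hUI.sdiff hRI
  have e1 := ee_sdiff (p := p) (Q : Subgroup G) hRU
  have e2 := ee_sdiff (p := p) (Q : Subgroup G) (orb_subset hI hv1)
  have b1 : _ ≤ ee p (Q : Subgroup G) (orb H (A p L γ')) := ee_of_empty hq (St_good L γ) hQH hem hv0
  have b2 := tnn_inv hq h3 (hMI H (St_le L γ)) (St_good L γ) hQH (hI.sdiff (orb_inv H (A p L γ')))
    fun ε hε => hmv ε (Finset.mem_sdiff.1 hε).1
  have b3 : - ((p : ℤ) * R.card) ≤ ee p (Q : Subgroup G) R := by
    have h1 : (nf (Q : Subgroup G) R : ℤ) ≤ R.card := by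
      exact_mod_cast Finset.card_filter_le _ _
    have h2 : (0 : ℤ) ≤ (p - 1) * ns (Q : Subgroup G) R :=
      mul_nonneg (by omega) (Int.natCast_nonneg _)
    rw [ee]; nlinarith
  rw [ee_conj (orb_inv L _) hP hQ.1] at hs
  have h2 : 1 < R.card := by
    by_contra h
    have : (R.card : ℤ) ≤ 1 := by exact_mod_cast (by omega : R.card ≤ 1)
    nlinarith
  obtain ⟨v, hv, w, hw, hvw⟩ := Finset.one_lt_card.1 h2
  rw [Finset.mem_filter] at hv hw
  have av := A_of_mem_orb_A hne' hv.1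
  have aw := A_of_mem_orb_A hne' hw.1
  have sv := Fx_St.1 hv.2
  have sw := Fx_St.1 hw.2
  rw [← A_A hne', ← A_ncard hv.1]
  refine Set.ncard_lt_ncard (ssubset_of_subset_of_ne sv fun h => hvw ?_) (Set.toFinite _)
  rw [h] at sw
  rw [← av, ← aw]
  exact A_eq_of_subset hv.1 hw.1 sw

/-- The final case without alternating orbits. -/
theorem fin_na (hq : ∀ P : Sylow p G, Nat.card P = p) (h3 : 3 ≤ p) {L : Subgroup G}
    (hMI : ∀ M ≤ L, MI p M) (hL : Good p L) {P : Sylow p G} (hP : (P : Subgroup G) ≤ L)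
    {O : Finset Ω} (hO : Inv L O) (hn : ∀ γ ∈ O, ¬ Fx L γ) (hs : p < ns (P : Subgroup G) O)
    (hnr : ∀ γ ∈ O, ¬ (orb L γ = O ∧ Red p L O))
    (hna : ∀ γ ∈ O, (A p L γ).Nonempty → ns (P : Subgroup G) (orb L (A p L γ)) = p →
      nf (P : Subgroup G) (orb L (A p L γ)) ≤ 2)
    {Z : Finset Ω} (hZ : Z ⊆ O) (hu : Unf p L Z) :
    (p : ℤ) * (2 * p - 3 - Z.card) ≤ ee p (P : Subgroup G) O := by
  have h3' : (3 : ℤ) ≤ p := by exact_mod_cast h3
  have hb : ∀ γ ∈ O, Big p (p - 3) P L γ := fun γ hγ =>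
    big_of_na hq (hMI L le_rfl) hL hP (hn γ hγ) (hna γ hγ)
  have key : ∀ γ ∈ O, ∀ k : ℤ, p - 3 ≤ k → k ≤ p - 1 → Big p k P L γ →
      (p : ℤ) * (k + p - 3) ≤ ee p (P : Subgroup G) O := fun γ hγ k h1 h2 h =>
    two_units hq h3 (hMI L le_rfl) hL hP hO hn hs hb hγ (hnr γ hγ) h1 h2 h
  obtain ⟨γ, hγ, -⟩ := hu P hP
  have hc : 0 < Z.card := Finset.card_pos.2 ⟨γ, hγ⟩
  rcases (by omega : Z.card = 1 ∨ Z.card = 2 ∨ 3 ≤ Z.card) with h | h | h
  · obtain ⟨δ, rfl⟩ := Finset.card_eq_one.1 h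
    have := key δ (hZ (Finset.mem_singleton_self δ)) (p - 1) (by omega) le_rfl (by
      rintro ⟨Q, hQ⟩
      obtain ⟨ε, hε, h⟩ := hu Q hQ.1
      rw [Finset.mem_singleton.1 hε] at h
      exact absurd hQ.2 h)
    rw [h]; push_cast; linarith
  · obtain ⟨δ, δ', -, rfl⟩ := Finset.card_eq_two.1 h
    have hd : A p L δ ∩ A p L δ' = ∅ := by
      rw [Set.eq_empty_iff_forall_notMem]
      rintro Q ⟨h1, h2⟩
      obtain ⟨ε, hε, h4⟩ := hu Q h1.1
      rcases Finset.mem_insert.1 hε with h5 | h5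
      · rw [h5] at h4; exact h4 h1.2
      · rw [Finset.mem_singleton.1 h5] at h4; exact h4 h2.2
    have hor : Big p (p - 2) P L δ ∨ Big p (p - 2) P L δ' := by
      by_contra hc
      simp only [Big, not_or, Classical.not_imp, not_le] at hc
      have h1 := freq_lt hq h3 hMI hP hc.1.1 hc.2.1 hd hc.2.2
      have h2 := freq_lt hq h3 hMI hP hc.2.1 hc.1.1 (by rw [Set.inter_comm, hd]) hc.1.2
      omega
    rw [h]; push_cast
    rcases hor with h1 | h1
    · have := key δ (hZ (by simp)) (p - 2) (by omega) (by omega) h1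
      linarith
    · have := key δ' (hZ (by simp)) (p - 2) (by omega) (by omega) h1
      linarith
  · have := key γ (hZ hγ) (p - 3) le_rfl (by omega) (hb γ (hZ hγ))
    have h' : (3 : ℤ) ≤ Z.card := by exact_mod_cast h
    nlinarith

end Cfsg.Lib.SyR
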