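import Cfsg.Agent.Lib.SyR.Red
import Cfsg.Agent.S0024
import Cfsg.Agent.S0025

/-! The `p`-nilpotent case of the Sylow ratio theorem. -/

set_option autoImplicit false
open Pointwise
open scoped Classical

namespace Cfsg.Lib.SyR

universe u

variable {G : Type u} [Group G] [Finite G] {Ω : Type u} [MulAction G Ω] {p : ℕ} [hp : Fact p.Prime]

omit [Finite G] in
theorem pn_card (K H : Subgroup G) :
    Nat.card (K ⊓ H : Subgroup G) * H.relIndex K = Nat.card K := by
  have h1 : Nat.card (K ⊓ H : Subgroup G) = Nat.card (H.subgroupOf K) := by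
    rw [← Subgroup.inf_subgroupOf_right, inf_comm]
    exact Nat.card_congr (Subgroup.subgroupOfEquivOfLe inf_le_right).symm.toEquiv
  rw [h1, Subgroup.relIndex, Subgroup.card_mul_index]

theorem pn_syl {r : ℕ} [Fact r.Prime] (K : Subgroup G) (R : Sylow r K) :
    Nat.card ((R : Subgroup K).map K.subtype) = r ^ (Nat.card K).factorization r := by
  rw [Subgroup.card_map_of_injective K.subtype_injective, Sylow.card_eq_multiplicity]

/-- Coprime action of a group `P` of order `p` on `B ≤ N` (both `P`-invariant):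
`|B : C_B(P)|` divides `|N : C_N(P)|`.
Proof: prime by prime (`Nat.dvd_of_forall_prime_pow..` / `Nat.factorization_prime_le_iff_dvd`).  For a prime `r`
take a `P`-invariant Sylow `R₁` of `B` (S0025, `U = ⊥`), a `P`-invariant Sylow `R` of `N` containing it (S0025),
and a `P`-invariant Sylow `R'` of `N` containing a Sylow `r`-subgroup `U` of `N ⊓ C` (S0025); `R = R'^c`
with `c ∈ C` (S0024), so `|R ⊓ C| ≥ |U| = |N ⊓ C|_r`.  `|R₁ : R₁ ⊓ C| ≤ |R : R ⊓ C|`
(`relIndex_le_of_le_right`), `|R₁ ⊓ C|` divides `|B ⊓ C|`. -/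
theorem cent_dvd (P N B : Subgroup G) (hP : Nat.card P = p) (hN : P ≤ Subgroup.normalizer (N : Set G))
    (hB : P ≤ Subgroup.normalizer (B : Set G)) (hBN : B ≤ N) (hcop : ¬ p ∣ Nat.card N) :
    Nat.card B * Nat.card (N ⊓ Subgroup.centralizer (P : Set G) : Subgroup G) ∣
      Nat.card N * Nat.card (B ⊓ Subgroup.centralizer (P : Set G) : Subgroup G) := by
  set C := Subgroup.centralizer (P : Set G) with hC
  have hcN : (Nat.card P).Coprime (Nat.card N) := hP ▸ (hp.out.coprime_iff_not_dvd).2 hcop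
  have hcB : (Nat.card P).Coprime (Nat.card B) :=
    hcN.coprime_dvd_right (Subgroup.card_dvd_of_le hBN)
  have hsol : Group.IsSolvable P := by
    have := isCyclic_of_prime_card hP
    exact Group.isSolvable_of_comm fun a b => (IsCyclic.commGroup (α := P)).mul_comm a b
  have ne : ∀ K : Subgroup G, Nat.card K ≠ 0 := fun K => Nat.card_pos.ne'
  rw [← Nat.factorization_prime_le_iff_dvd (mul_ne_zero (ne _) (ne _)) (mul_ne_zero (ne _) (ne _))]
  intro r hr
  have : Fact r.Prime := ⟨hr⟩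
  rw [Nat.factorization_mul (ne _) (ne _), Nat.factorization_mul (ne _) (ne _)]
  simp only [Finsupp.add_apply]
  obtain ⟨R1, -, hR1⟩ := Cfsg.Agent.S0025.result P B hB hcB (Or.inl hsol) r ⊥ bot_le
    IsPGroup.of_bot (by rw [Subgroup.normalizer_eq_top]; exact le_top)
  set S1 := (R1 : Subgroup B).map B.subtype with hS1
  have hS1B : S1 ≤ B := Subgroup.map_subtype_le _
  have hS1p : IsPGroup r S1 := R1.isPGroup'.map _
  obtain ⟨R, hR, hRn⟩ := Cfsg.Agent.S0025.result P N hN hcN (Or.inl hsol) r S1 (hS1B.trans hBN)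
    hS1p hR1
  obtain ⟨U0⟩ : Nonempty (Sylow r (N ⊓ C : Subgroup G)) := inferInstance
  set U := (U0 : Subgroup (N ⊓ C : Subgroup G)).map (N ⊓ C).subtype with hU
  have hUle : U ≤ N ⊓ C := Subgroup.map_subtype_le _
  obtain ⟨R', hR', hR'n⟩ := Cfsg.Agent.S0025.result P N hN hcN (Or.inl hsol) r U
    (hUle.trans inf_le_left) (U0.isPGroup'.map _) (by
      refine le_trans (fun x hx => ?_) (Subgroup.centralizer_le_normalizer (U : Set G))
      exact Subgroup.mem_centralizer_iff.2 fun y hy =>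
        (Subgroup.mem_centralizer_iff.1 (hUle hy).2 x hx).symm)
  obtain ⟨c, hc, hcR⟩ := Cfsg.Agent.S0024.result P N hN hcN (Or.inl hsol) r R' R hR'n hRn
  set S := (R : Subgroup N).map N.subtype with hS
  have h1 : Nat.card U ≤ Nat.card (S ⊓ C : Subgroup G) := by
    refine Nat.card_le_card_of_injective
      (fun x : U => (⟨(c : G) * x * (c : G)⁻¹, ?_, ?_⟩ : (S ⊓ C : Subgroup G))) ?_
    · obtain ⟨y, hy, e⟩ := hR' x.2
      refine ⟨c * y * c⁻¹, ?_, by simp [← e]⟩
      rw [← hcR]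
      exact Subgroup.smul_mem_pointwise_smul y (MulAut.conj c) _ hy
    · exact C.mul_mem (C.mul_mem hc (hUle x.2).2) (C.inv_mem hc)
    · intro x y e
      have := congrArg Subtype.val e
      exact Subtype.ext (by simpa using this)
  have h2 : C.relIndex S1 ≤ C.relIndex S :=
    Subgroup.relIndex_le_of_le_right hR Subgroup.index_ne_zero_of_finite
  obtain ⟨e, he⟩ := (IsPGroup.iff_card).1 (hS1p.to_le (inf_le_left : S1 ⊓ C ≤ S1))
  have h3 : e ≤ (Nat.card (B ⊓ C : Subgroup G)).factorization r := by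
    rw [← hr.pow_dvd_iff_le_factorization (ne _), ← he]
    exact Subgroup.card_dvd_of_le (inf_le_inf_right _ hS1B)
  have h4 : Nat.card S1 * Nat.card U ≤ Nat.card S * r ^ e := by
    rw [← pn_card S1 C, ← pn_card S C, he]
    calc r ^ e * C.relIndex S1 * Nat.card U
        ≤ r ^ e * C.relIndex S * Nat.card (S ⊓ C : Subgroup G) := by gcongr
      _ = _ := by ring
  rw [hS1, hU, hS, pn_syl, pn_syl, pn_syl, ← pow_add, ← pow_add,
    Nat.pow_le_pow_iff_right hr.one_lt] at h4
  omega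

omit [Finite G] in
/-- Glauberman's lemma in the case needed. -/
theorem pn_fix (P N : Subgroup G) (hP : Nat.card P = p)
    (hN : P ≤ Subgroup.normalizer (N : Set G)) (hcop : ¬ p ∣ Nat.card N) {γ : Ω} (hγ : Fx P γ)
    {n : G} (hn : n ∈ N) (hδ : Fx P (n • γ)) :
    ∃ m ∈ N ⊓ Subgroup.centralizer (P : Set G), m • γ = n • γ := by
  let T := {m : G // m ∈ N ∧ m • γ = n • γ}
  let _ : MulAction P T :=
    { smul := fun x t => ⟨x * t * (x : G)⁻¹, (Subgroup.mem_normalizer_iff.1 (hN x.2) _).1 t.2.1, by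
        rw [mul_smul, mul_smul, hγ _ (P.inv_mem x.2), t.2.2, hδ _ x.2]⟩
      one_smul := fun t => Subtype.ext (by
        change ((1 : P) : G) * t * ((1 : P) : G)⁻¹ = t
        simp)
      mul_smul := fun x y t => Subtype.ext (by
        change ((x * y : P) : G) * t * ((x * y : P) : G)⁻¹ = x * (y * t * (y : G)⁻¹) * (x : G)⁻¹
        simp [mul_assoc]) }
  have hT : Nat.card T = Nat.card (N ⊓ MulAction.stabilizer G γ : Subgroup G) := by
    refine Nat.card_congr ⟨fun t => ⟨n⁻¹ * t, N.mul_mem (N.inv_mem hn) t.2.1, ?_⟩,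
      fun b => ⟨n * b, N.mul_mem hn b.2.1, ?_⟩, fun t => by simp, fun b => by simp⟩
    · change (n⁻¹ * t) • γ = γ
      rw [mul_smul, t.2.2, inv_smul_smul]
    · have : (b : G) • γ = γ := b.2.2
      rw [mul_smul, this]
  have hd : ¬ p ∣ Nat.card T := fun h =>
    hcop ((hT ▸ h).trans (Subgroup.card_dvd_of_le inf_le_left))
  obtain ⟨t, ht⟩ := (IsPGroup.of_card (n := 1) (by rw [hP, pow_one]) :
    IsPGroup p P).nonempty_fixed_point_of_prime_not_dvd_card T hd
  refine ⟨t, ⟨t.2.1, Subgroup.mem_centralizer_iff.2 fun x hx => ?_⟩, t.2.2⟩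
  have : x * t * x⁻¹ = t := congrArg Subtype.val (ht ⟨x, hx⟩)
  rw [← mul_inv_eq_iff_eq_mul]; exact this

/-- `N` a `p'`-group normalized by `P` (order `p`), transitive on a `P`-invariant set on which `P` acts
nontrivially: `p f ≤ s`.  Proof: if `f > 0` let `γ` be fixed (`orb_eq`), `B = N ⊓ stabilizer γ`, `C = C(P)`.
The fixed points are `orb (N ⊓ C) γ` (for `δ = nγ` fixed, `P` acts by conjugation on
`{n' ∈ N | n'γ = δ}`, of size `|B|` prime to `p`, so has a fixed point).  `f = |N ⊓ C : B ⊓ C|` and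
`n = |N : B|` (`card_orb`), so `f ∣ n` by `cent_dvd`; `n = f k`, `s = f (k-1) > 0`, `p ∣ s` (`dvd_ns`),
`p ∤ f`, so `p ∣ k - 1`, `s ≥ p f`. -/
theorem pn [Fintype Ω] (P N : Subgroup G) (hP : Nat.card P = p)
    (hN : P ≤ Subgroup.normalizer (N : Set G)) (hcop : ¬ p ∣ Nat.card N) (γ : Ω)
    (hO : Inv P (orb N γ)) (hs : 0 < ns P (orb N γ)) : p * nf P (orb N γ) ≤ ns P (orb N γ) := by
  rcases Nat.eq_zero_or_pos (nf P (orb N γ)) with h0 | h0
  · rw [h0]; exact Nat.zero_le _
  obtain ⟨δ, hδ, hf⟩ := nf_pos_iff.1 h0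
  rw [← orb_eq hδ] at hO hs h0 ⊢
  set C := Subgroup.centralizer (P : Set G) with hC
  set S := MulAction.stabilizer G δ with hS
  have hB : P ≤ Subgroup.normalizer ((N ⊓ S : Subgroup G) : Set G) :=
    (le_inf hN ((Fx_iff_le.1 hf).trans Subgroup.le_normalizer)).trans
      (Subgroup.inf_normalizer_le_normalizer_inf)
  have hd := cent_dvd P N (N ⊓ S) hP hN hB inf_le_left hcop
  have e1 : nf P (orb N δ) = S.relIndex (N ⊓ C) := by
    rw [← card_orb, nf]
    congr 1
    ext ε
    rw [Finset.mem_filter, mem_orb, mem_orb]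
    constructor
    · rintro ⟨⟨n, hn, rfl⟩, h⟩
      exact pn_fix P N hP hN hcop hf hn h
    · rintro ⟨m, hm, rfl⟩
      refine ⟨⟨m, hm.1, rfl⟩, fun x hx => ?_⟩
      rw [← mul_smul, Subgroup.mem_centralizer_iff.1 hm.2 x hx, mul_smul, hf x hx]
  have e2 := card_orb N δ
  rw [← nf_add_ns P, ← hS] at e2
  have e3 := pn_card N S
  have e4 := pn_card (N ⊓ C) S
  rw [inf_right_comm, ← e1] at e4
  rw [← hC, ← e4, ← e3, ← e2] at hd
  have hk : nf P (orb N δ) ∣ ns P (orb N δ) := by
    rw [Nat.dvd_add_iff_right (dvd_refl _), ← Nat.mul_dvd_mul_iff_left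
      (a := Nat.card (N ⊓ S : Subgroup G) * Nat.card (N ⊓ S ⊓ C : Subgroup G))
      (Nat.mul_pos Nat.card_pos Nat.card_pos)]
    convert hd using 1 <;> ring
  have hc : p.Coprime (nf P (orb N δ)) := (hp.out.coprime_iff_not_dvd).2 fun h => hcop <| by
    rw [← e3, ← e2]
    exact Dvd.dvd.mul_left (dvd_add h (dvd_ns hP hO)) _
  exact Nat.le_of_dvd hs (hc.mul_dvd_of_dvd_of_dvd (dvd_ns hP hO) hk)

end Cfsg.Lib.SyR
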