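import Cfsg.Agent.Lib.SyR.NA
import Cfsg.Agent.Lib.SyR.Alt
import Cfsg.Agent.Lib.SyR.PN

/-! Non-natural orbits of a group of alternating type have large deficiency. -/

set_option autoImplicit false
open Pointwise
open scoped Classical

namespace Cfsg.Lib.SyR

universe u

variable {G : Type u} [Group G] [Finite G] {Ω : Type u} [MulAction G Ω] [Fintype Ω] {p : ℕ}
  [hp : Fact p.Prime]

theorem three_le_choose {p a z : ℕ} (h3 : 3 ≤ a) (ha : a + 1 ≤ p) (h2 : 2 ≤ z) (hz : z ≤ a) :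
    3 * p ≤ (p + a).choose z := by
  induction z, h2 using Nat.le_induction with
  | base =>
    rw [Nat.choose_two_right, Nat.le_div_iff_mul_le two_pos]
    obtain ⟨b, rfl⟩ : ∃ b, a = b + 1 := ⟨a - 1, by omega⟩
    rw [← add_assoc, Nat.add_sub_cancel]
    nlinarith
  | succ z h ih =>
    exact (ih (by omega)).trans (Nat.choose_le_succ_of_lt_half_left (by omega))

theorem ratio (hq : ∀ P : Sylow p G, Nat.card P = p) (h3 : 3 ≤ p) {L : Subgroup G}
    (hMI : MI p L) (hL : Good p L) {P : Sylow p G} (hP : (P : Subgroup G) ≤ L) {γ : Ω}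
    (hγ : ¬ Fx L γ) : 2 * (A p L γ).ncard ≤ (X p L).ncard := by
  have h1 := tnn hq h3 hMI hL hP hγ
  have h2 := dc hP γ
  have h4 := nf_add_ns (P : Subgroup G) (orb L γ)
  have h5 : 2 * nf (P : Subgroup G) (orb L γ) ≤ (orb L γ).card := by
    rw [ee] at h1
    have h6 : (0 : ℤ) ≤ ns (P : Subgroup G) (orb L γ) := Int.natCast_nonneg _
    have h7 : (3 : ℤ) ≤ p := by exact_mod_cast h3
    have : (nf (P : Subgroup G) (orb L γ) : ℤ) ≤ ns (P : Subgroup G) (orb L γ) := by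
      by_contra h
      nlinarith
    omega
  have h6 : 0 < (orb L γ).card := Finset.card_pos.2 ⟨γ, self_mem_orb L γ⟩
  refine Nat.le_of_mul_le_mul_left ?_ h6
  have := Nat.mul_le_mul_right (X p L).ncard h5
  nlinarith

theorem sylow_le_of_dvd (hq : ∀ P : Sylow p G, Nat.card P = p) {N : Subgroup G}
    (h : p ∣ Nat.card N) : ∃ R : Sylow p G, (R : Subgroup G) ≤ N := by
  obtain ⟨x, hx⟩ := exists_prime_orderOf_dvd_card' p h
  have h1 : Nat.card (Subgroup.zpowers (x : G)) = p := by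
    rw [Nat.card_zpowers, Subgroup.orderOf_coe, hx]
  obtain ⟨R, hR⟩ := (IsPGroup.of_card (n := 1) (by rw [h1, pow_one])).exists_le_sylow
  refine ⟨R, ?_⟩
  rw [← Subgroup.eq_of_le_of_card_ge hR (by rw [hq, h1])]
  exact Subgroup.zpowers_le.2 x.2

theorem nn_zero (hq : ∀ P : Sylow p G, Nat.card P = p) (h3 : 3 ≤ p) {L : Subgroup G}
    (hL : Good p L) {P : Sylow p G} {α : Ω} (hs : ns (P : Subgroup G) (orb L α) = p)
    (hf : 3 ≤ nf (P : Subgroup G) (orb L α)) {Ω' : Type u} [MulAction G Ω'] [Fintype Ω'] {γ : Ω'}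
    (hγ : ¬ Fx L γ) (hP : P ∈ A p L γ) (hz : ∀ δ ∈ orb L α, ¬ Fx (St p L γ) δ) :
    p * nf (P : Subgroup G) (orb L γ) ≤ ns (P : Subgroup G) (orb L γ) := by
  have hPH : (P : Subgroup G) ≤ St p L γ := le_St.2 hP
  have ho := orb_eq_of_ns hq (St_good L γ) hPH ((orb_inv L α).mono (St_le L γ)) hz hs.le
    (self_mem_orb L α)
  set N := L ⊓ fixingSubgroup G (orb L α : Set Ω) with hN
  have mN : ∀ x, x ∈ N ↔ x ∈ L ∧ ∀ δ ∈ orb L α, x • δ = δ := fun x => by
    rw [hN, Subgroup.mem_inf, mem_fixingSubgroup_iff]; rfl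
  have hNo : orb N γ = orb L γ := by
    refine Finset.Subset.antisymm (orb_mono inf_le_left γ) fun δ hδ => ?_
    obtain ⟨g, hg, rfl⟩ := mem_orb.1 hδ
    obtain ⟨h, hh, e⟩ := alt_sub hq h3 hL (St_good L γ) (St_le L γ) hPH hs hf ho g hg
    have hh' := St_le L γ hh
    refine mem_orb.2 ⟨g * h⁻¹, (mN _).2 ⟨L.mul_mem hg (L.inv_mem hh'), fun ε hε => ?_⟩, ?_⟩
    · rw [mul_smul, ← e _ (orb_inv L α _ (L.inv_mem hh') ε hε), smul_inv_smul]
    · rw [mul_smul, St_fx L γ _ ((St p L γ).inv_mem hh)]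
  have hc : ∀ g ∈ L, ∀ x ∈ N, g * x * g⁻¹ ∈ N := by
    intro g hg x hx
    rw [mN] at hx ⊢
    refine ⟨L.mul_mem (L.mul_mem hg hx.1) (L.inv_mem hg), fun δ hδ => ?_⟩
    rw [mul_smul, mul_smul, hx.2 _ (orb_inv L α _ (L.inv_mem hg) δ hδ), smul_inv_smul]
  rw [← hNo]
  refine pn P N (hq P) (fun g hg => ?_) (fun h => ?_) γ ?_ ?_
  · rw [Subgroup.mem_normalizer_iff]
    refine fun x => ⟨hc g (hP.1 hg) x, fun hx => ?_⟩
    simpa [mul_assoc] using hc g⁻¹ (L.inv_mem (hP.1 hg)) _ hx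
  · obtain ⟨R, hR⟩ := sylow_le_of_dvd hq h
    have h1 := ns_conj (orb_inv L α) hP.1 (hR.trans inf_le_left)
    obtain ⟨δ, hδ, h2⟩ := ns_pos_iff.1 (by rw [← h1, hs]; exact hp.out.pos :
      0 < ns (R : Subgroup G) (orb L α))
    exact h2 fun x hx => ((mN x).1 (hR hx)).2 δ hδ
  · rw [hNo]; exact (orb_inv L γ).mono hP.1
  · rw [hNo]; exact ns_pos hL hP.1 hγ

theorem nn_card (hq : ∀ P : Sylow p G, Nat.card P = p) {L : Subgroup G}
    (hL : Good p L) {P : Sylow p G} {α : Ω} (hs : ns (P : Subgroup G) (orb L α) = p)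
    (hf : 3 ≤ nf (P : Subgroup G) (orb L α)) (hf' : nf (P : Subgroup G) (orb L α) + 1 ≤ p)
    {Ω' : Type u} [MulAction G Ω'] [Fintype Ω'] {γ : Ω'} (hP : P ∈ A p L γ) {β : Ω}
    (hβ : β ∈ orb L α) (hb : A p L γ ⊆ A p L β) (hnn : A p L γ ≠ A p L β) :
    3 * p ≤ (orb L γ).card := by
  set ZZ : Ω' → Finset Ω := fun δ => (orb L α).filter fun u => A p L δ ⊆ A p L u with hZZ
  have hsm : ∀ g ∈ L, ∀ δ, ZZ (g • δ) = (ZZ δ).image (g • ·) := by
    intro g hg δ
    ext u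
    simp only [hZZ, Finset.mem_filter, Finset.mem_image]
    constructor
    · rintro ⟨h1, h2⟩
      refine ⟨g⁻¹ • u, ⟨orb_inv L α _ (L.inv_mem hg) u h1, ?_⟩, smul_inv_smul g u⟩
      rwa [A_smul (L.inv_mem hg), Set.subset_smul_set_iff, inv_inv, ← A_smul hg]
    · rintro ⟨v, ⟨h1, h2⟩, rfl⟩
      exact ⟨orb_inv L α g hg v h1, by rw [A_smul hg, A_smul hg]; exact Set.smul_set_mono h2⟩
  have hm := nf_add_ns (P : Subgroup G) (orb L α)
  have hza : (ZZ γ).card ≤ nf (P : Subgroup G) (orb L α) :=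
    Finset.card_le_card fun u hu => by
      rw [Finset.mem_filter] at hu ⊢
      exact ⟨hu.1, (hu.2 hP).2⟩
  have hβZ : β ∈ ZZ γ := Finset.mem_filter.2 ⟨hβ, hb⟩
  have hz0 : 0 < (ZZ γ).card := Finset.card_pos.2 ⟨β, hβZ⟩
  rcases (by omega : (ZZ γ).card = 1 ∨ 2 ≤ (ZZ γ).card) with h1 | h2
  · have hZ : ZZ γ = {β} := by
      obtain ⟨b, e⟩ := Finset.card_eq_one.1 h1
      rw [e, Finset.mem_singleton] at hβZ
      rw [e, hβZ]
    have hlt : (A p L γ).ncard < (A p L β).ncard :=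
      Set.ncard_lt_ncard (ssubset_of_subset_of_ne hb hnn) (Set.toFinite _)
    have key := Finset.mul_card_image_le_card (f := ZZ) (orb L γ) p (by
      intro b hb'
      obtain ⟨δ, hδ, rfl⟩ := Finset.mem_image.1 hb'
      obtain ⟨g, hg, rfl⟩ := mem_orb.1 hδ
      have e : ZZ (g • γ) = {g • β} := by rw [hsm g hg, hZ, Finset.image_singleton]
      have hQ : g • P ∈ A p L (g • β) := by rw [A_smul hg]; exact Set.smul_mem_smul_set (hb hP)
      have hmv : ¬ Fx (St p L (g • β)) (g • γ) := fun h => by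
        have := Set.ncard_le_ncard (Fx_St.1 h) (Set.toFinite _)
        rw [A_ncard (smul_mem_orb hg β), A_ncard (smul_mem_orb hg γ)] at this
        omega
      refine (le_ns hq (St_good L _) (le_St.2 hQ) hmv).trans
        ((Finset.card_filter_le _ _).trans (Finset.card_le_card fun ε hε => ?_))
      obtain ⟨h, hh, rfl⟩ := mem_orb.1 hε
      refine Finset.mem_filter.2 ⟨orb_inv L γ h (St_le L _ hh) _ hδ, ?_⟩
      rw [hsm h (St_le L _ hh), e, Finset.image_singleton, St_fx L _ h hh])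
    have h4 : (orb L α).card ≤ ((orb L γ).image ZZ).card := by
      refine Finset.card_le_card_of_injOn (fun u => {u}) (fun u hu => ?_)
        fun u _ v _ h => Finset.singleton_injective h
      obtain ⟨g, hg, rfl⟩ := exists_smul_of_mem_orb hβ hu
      exact Finset.mem_coe.2 (Finset.mem_image.2 ⟨g • γ, smul_mem_orb hg γ, by
        rw [hsm g hg, hZ, Finset.image_singleton]⟩)
    have : p * 3 ≤ p * ((orb L γ).image ZZ).card := Nat.mul_le_mul_left p (by omega)
    omega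
  · have h4 : (orb L α).powersetCard (ZZ γ).card ⊆ (orb L γ).image ZZ := by
      intro W hW
      rw [Finset.mem_powersetCard] at hW
      obtain ⟨g, hg, e⟩ := alt_subsets hq hL hP.1 hs hf (Finset.filter_subset _ _) hW.1 hW.2.symm h2
      exact Finset.mem_image.2 ⟨g • γ, smul_mem_orb hg γ, by rw [hsm g hg]; exact e⟩
    have h5 := (Finset.card_le_card h4).trans Finset.card_image_le
    rw [Finset.card_powersetCard, ← hm, hs, add_comm] at h5
    exact (three_le_choose hf hf' h2 hza).trans h5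

theorem nonnat (hq : ∀ P : Sylow p G, Nat.card P = p) (h3 : 3 ≤ p) {L : Subgroup G}
    (hMI : ∀ M ≤ L, MI p M) (hL : Good p L) {P : Sylow p G} (hP : (P : Subgroup G) ≤ L) {α : Ω}
    (hs : ns (P : Subgroup G) (orb L α) = p) (hf : 3 ≤ nf (P : Subgroup G) (orb L α))
    {Ω' : Type u} [MulAction G Ω'] [Fintype Ω'] {γ : Ω'}
    (hγ : ¬ Fx L γ) (hnn : ∀ u ∈ orb L α, A p L γ ≠ A p L u) :
    (p : ℤ) * (2 * p - 4) ≤ ee p (P : Subgroup G) (orb L γ) := by
  have h3' : (3 : ℤ) ≤ p := by exact_mod_cast h3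
  have hm := nf_add_ns (P : Subgroup G) (orb L α)
  have hc := alt_card_le hq hL hP hs hf hγ
  have hn := nf_add_ns (P : Subgroup G) (orb L γ)
  obtain ⟨t, ht⟩ := dvd_ns (hq P) ((orb_inv L γ).mono hP)
  have small : nf (P : Subgroup G) (orb L γ) ≤ t → (p : ℤ) * (2 * p - 4) ≤
      ee p (P : Subgroup G) (orb L γ) := by
    intro h
    have h2 : 2 ≤ t := by
      by_contra h2
      have : t ≤ 1 := by omega
      have := Nat.mul_le_mul_left p this
      omega
    have h2' : (2 : ℤ) ≤ t := by exact_mod_cast h2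
    have h' : (nf (P : Subgroup G) (orb L γ) : ℤ) ≤ t := by exact_mod_cast h
    rw [ee, ht]
    push_cast
    have h5 : (0 : ℤ) ≤ p * (p - 2) * (t - 2) :=
      mul_nonneg (mul_nonneg (by omega) (by omega)) (by omega)
    nlinarith
  by_cases hne : (A p L γ).Nonempty
  swap
  · rw [A_nonempty_iff hP] at hne
    exact small (by omega)
  obtain ⟨Q, hQ⟩ := hne
  have c1 := nf_conj (orb_inv L α) hP hQ.1
  have c2 := ns_conj (orb_inv L α) hP hQ.1
  have c3 := nf_conj (orb_inv L γ) hP hQ.1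
  have c4 := ns_conj (orb_inv L γ) hP hQ.1
  by_cases hz : ∀ δ ∈ orb L α, ¬ Fx (St p L γ) δ
  · have := nn_zero hq h3 hL (c2 ▸ hs) (c1 ▸ hf) hγ hQ hz
    rw [← c3, ← c4, ht] at this
    exact small (Nat.le_of_mul_le_mul_left this hp.out.pos)
  push Not at hz
  obtain ⟨β, hβ, hb⟩ := hz
  rw [Fx_St] at hb
  have hα : ¬ Fx L α := fun h => by
    obtain ⟨δ, hδ, h2⟩ := ns_pos_iff.1 (by rw [hs]; omega : 0 < ns (P : Subgroup G) (orb L α))
    exact not_Fx_of_mem_orb (orb_symm hδ) (fun h4 => h2 (h4.mono hP)) h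
  have hf' : nf (P : Subgroup G) (orb L α) + 1 ≤ p := by
    rcases unit_red hq (hMI L le_rfl) hL hP
      (t1_red hq hL hP ((A_nonempty_iff hP).2 (by omega)) hs) hα with h | h
    · exact h.2
    · omega
  have hcard := nn_card hq hL (c2 ▸ hs) (c1 ▸ hf) (c1 ▸ hf') hQ hβ hb (hnn β hβ)
  have r1 := ratio hq h3 (hMI L le_rfl) hL hP (not_Fx_of_mem_orb hβ hα)
  have r2 := ratio hq h3 (hMI _ (St_le L β)) (St_good L β) (le_St.2 (hb hQ)) (γ := γ)
    fun h => hnn β hβ (Set.Subset.antisymm hb (Fx_St.1 h))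
  rw [A_St, X_St, Set.inter_eq_self_of_subset_right hb] at r2
  have d := dc hP γ
  have h0 : 0 < (A p L γ).ncard := (Set.ncard_pos (Set.toFinite _)).2 ⟨Q, hQ⟩
  have h4 : 4 * nf (P : Subgroup G) (orb L γ) ≤ (orb L γ).card := by
    refine Nat.le_of_mul_le_mul_right ?_ h0
    have : nf (P : Subgroup G) (orb L γ) * (4 * (A p L γ).ncard) ≤
        nf (P : Subgroup G) (orb L γ) * (X p L).ncard := Nat.mul_le_mul_left _ (by omega)
    nlinarith
  have h5 : 3 ≤ t := by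
    by_contra h2
    have : t ≤ 2 := by omega
    have := Nat.mul_le_mul_left p this
    omega
  have h5' : (3 : ℤ) ≤ t := by exact_mod_cast h5
  have h6 : (3 : ℤ) * nf (P : Subgroup G) (orb L γ) ≤ p * t := by
    exact_mod_cast (by omega : 3 * nf (P : Subgroup G) (orb L γ) ≤ p * t)
  rw [ee, ht]
  push_cast
  have h7 : (0 : ℤ) ≤ p * (2 * p - 3) * (t - 3) :=
    mul_nonneg (mul_nonneg (by omega) (by omega)) (by omega)
  have h8 : (p : ℤ) * (3 * nf (P : Subgroup G) (orb L γ)) ≤ p * (p * t) :=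
    mul_le_mul_of_nonneg_left h6 (by omega)
  nlinarith

end Cfsg.Lib.SyR
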