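import Cfsg.Agent.Lib.SyR.Bas

/-! Passing to the reduced action `γ ↦ A p K γ`, and double counting. -/

set_option autoImplicit false
open Pointwise
open scoped Classical

namespace Cfsg.Lib.SyR

universe u
variable {G : Type u} [Group G] [Finite G] {Ω : Type u} [MulAction G Ω] {p : ℕ} [hp : Fact p.Prime]

omit [Finite G] hp in
theorem mem_normalizer_gen {S : Set (Sylow p G)} {u : G} (h : u • S = S) :
    u ∈ Subgroup.normalizer (gen S : Set G) := by
  have key : ∀ v : G, v • S = S → ∀ x ∈ gen S, v * x * v⁻¹ ∈ gen S := by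
    intro v hv
    have : gen S ≤ (gen S).comap (MulAut.conj v).toMonoidHom := gen_le.2 fun Q hQ x hx => by
      have h1 : v • Q ∈ S := hv ▸ Set.smul_mem_smul_set hQ
      exact le_gen h1 ((mem_smul_sylow v Q _).2 (by simpa [mul_assoc] using hx))
    exact fun x hx => this hx
  rw [Subgroup.mem_normalizer_iff]
  intro x
  refine ⟨key u h x, fun hx => ?_⟩
  have := key u⁻¹ (by rw [inv_smul_eq_iff, h]) _ hx
  simpa [mul_assoc] using this

/-- A `p`-subgroup normalizing a subgroup that contains a Sylow subgroup lies in it. -/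
theorem le_of_le_normalizer {H R : Subgroup G} (hR : IsPGroup p R) {Q : Sylow p G}
    (hQ : (Q : Subgroup G) ≤ H) (h : R ≤ Subgroup.normalizer (H : Set G)) : R ≤ H := by
  obtain ⟨T, hT⟩ := (hR.comap_subtype (K := Subgroup.normalizer (H : Set G))).exists_le_sylow
  have hQN : (Q : Subgroup G) ≤ Subgroup.normalizer (H : Set G) := hQ.trans Subgroup.le_normalizer
  obtain ⟨g, hg⟩ := MulAction.exists_smul_eq (Subgroup.normalizer (H : Set G)) (Q.subtype hQN) T
  intro x hx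
  have h1 : (⟨x, h hx⟩ : Subgroup.normalizer (H : Set G)) ∈ (T : Subgroup _) := hT hx
  rw [← hg, mem_smul_sylow] at h1
  have h2 : (g : G)⁻¹ * x * g ∈ H := hQ h1
  have := (Subgroup.mem_normalizer_iff.1 g.2 _).1 h2
  simpa [mul_assoc] using this

theorem fx_of_fx_A {K R : Subgroup G} (hR : IsPGroup p R) {γ : Ω} (hne : (A p K γ).Nonempty)
    (h : Fx R (A p K γ)) : Fx R γ := by
  obtain ⟨Q, hQ⟩ := hne
  exact (St_fx K γ).mono (le_of_le_normalizer hR (le_St.2 hQ) fun x hx =>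
    mem_normalizer_gen (h x hx))

omit [Finite G] hp in
theorem fx_A_of_fx {K R : Subgroup G} (hR : R ≤ K) {γ : Ω} (h : Fx R γ) : Fx R (A p K γ) :=
  fun x hx => by rw [← A_smul (hR hx), h x hx]

theorem Fx_A {K : Subgroup G} {γ : Ω} (hne : (A p K γ).Nonempty) {Q : Sylow p G}
    (hQ : (Q : Subgroup G) ≤ K) : Fx (Q : Subgroup G) (A p K γ) ↔ Fx (Q : Subgroup G) γ :=
  ⟨fx_of_fx_A Q.isPGroup' hne, fx_A_of_fx hQ⟩

theorem A_A {K : Subgroup G} {γ : Ω} (hne : (A p K γ).Nonempty) : A p K (A p K γ) = A p K γ := by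
  ext Q
  exact ⟨fun h => ⟨h.1, (Fx_A hne h.1).1 h.2⟩, fun h => ⟨h.1, (Fx_A hne h.1).2 h.2⟩⟩

variable [Fintype Ω]

omit hp in
theorem mem_orb_A {K : Subgroup G} {γ : Ω} {v : Set (Sylow p G)} :
    v ∈ orb K (A p K γ) ↔ ∃ δ ∈ orb K γ, A p K δ = v := by
  rw [mem_orb]
  constructor
  · rintro ⟨g, hg, rfl⟩; exact ⟨g • γ, smul_mem_orb hg γ, A_smul hg γ⟩
  · rintro ⟨δ, hδ, rfl⟩
    obtain ⟨g, hg, rfl⟩ := mem_orb.1 hδ
    exact ⟨g, hg, (A_smul hg γ).symm⟩

theorem A_of_mem_orb_A {K : Subgroup G} {γ : Ω} (hne : (A p K γ).Nonempty) {v : Set (Sylow p G)}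
    (hv : v ∈ orb K (A p K γ)) : A p K v = v := by
  obtain ⟨δ, hδ, rfl⟩ := mem_orb_A.1 hv
  exact A_A (A_nonempty hδ hne)

theorem red_A {K : Subgroup G} {γ : Ω} (hne : (A p K γ).Nonempty) :
    Red p K (orb K (A p K γ)) := by
  refine ⟨fun v hv => A_nonempty hv (by rw [A_A hne]; exact hne), fun v hv w hw h => ?_⟩
  rwa [A_of_mem_orb_A hne hv, A_of_mem_orb_A hne hw] at h

omit [Finite G] hp in
theorem fib_pos (K : Subgroup G) (γ : Ω) : 0 < fib p K γ :=
  Finset.card_pos.2 ⟨γ, Finset.mem_filter.2 ⟨self_mem_orb K γ, rfl⟩⟩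

omit [Finite G] hp in
theorem fib_eq {K : Subgroup G} {γ δ : Ω} (h : δ ∈ orb K γ) : fib p K δ = fib p K γ := by
  obtain ⟨g, hg, rfl⟩ := mem_orb.1 h
  rw [fib, fib, orb_eq h]
  symm
  refine Finset.card_bij (fun γ _ => g • γ) ?_ ?_ ?_
  · intro δ hδ
    rw [Finset.mem_filter] at hδ ⊢
    exact ⟨orb_inv K γ g hg δ hδ.1, by rw [A_smul hg, A_smul hg, hδ.2]⟩
  · intro a _ b _ h; exact MulAction.injective g h
  · intro δ hδ
    rw [Finset.mem_filter] at hδ
    refine ⟨g⁻¹ • δ, Finset.mem_filter.2 ⟨orb_inv K γ _ (K.inv_mem hg) δ hδ.1, ?_⟩,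
      smul_inv_smul g δ⟩
    rw [A_smul (K.inv_mem hg), hδ.2, A_smul hg, inv_smul_smul]

omit hp in
theorem sum_fib (K : Subgroup G) (γ : Ω) (w : Set (Sylow p G) → ℤ) :
    ∑ δ ∈ orb K γ, w (A p K δ) = fib p K γ * ∑ v ∈ orb K (A p K γ), w v := by
  rw [← Finset.sum_fiberwise_of_maps_to (s := orb K γ) (t := orb K (A p K γ)) (g := A p K)
    fun δ hδ => mem_orb_A.2 ⟨δ, hδ, rfl⟩, Finset.mul_sum]
  refine Finset.sum_congr rfl fun v hv => ?_
  obtain ⟨δ, hδ, rfl⟩ := mem_orb_A.1 hv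
  rw [← fib_eq hδ, fib, orb_eq hδ, Finset.sum_congr rfl (g := fun _ => w (A p K δ))
    fun x hx => by rw [(Finset.mem_filter.1 hx).2]]
  simp

theorem wt_fib (a b : ℤ) {K : Subgroup G} {γ : Ω} (hne : (A p K γ).Nonempty) {P : Sylow p G}
    (hP : (P : Subgroup G) ≤ K) : ∑ δ ∈ orb K γ, wt a b (P : Subgroup G) δ =
      fib p K γ * ∑ v ∈ orb K (A p K γ), wt a b (P : Subgroup G) v := by
  rw [← sum_fib]
  refine Finset.sum_congr rfl fun δ hδ => ?_
  simp only [wt, Fx_A (A_nonempty hδ hne) hP]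

theorem nf_fib {K : Subgroup G} {γ : Ω} (hne : (A p K γ).Nonempty) {P : Sylow p G}
    (hP : (P : Subgroup G) ≤ K) : nf (P : Subgroup G) (orb K γ) =
      fib p K γ * nf (P : Subgroup G) (orb K (A p K γ)) := by
  have := wt_fib 1 0 hne hP
  simp only [sum_wt, one_mul, zero_mul, add_zero] at this
  exact_mod_cast this

theorem ns_fib {K : Subgroup G} {γ : Ω} (hne : (A p K γ).Nonempty) {P : Sylow p G}
    (hP : (P : Subgroup G) ≤ K) : ns (P : Subgroup G) (orb K γ) =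
      fib p K γ * ns (P : Subgroup G) (orb K (A p K γ)) := by
  have := wt_fib 0 1 hne hP
  simp only [sum_wt, one_mul, zero_mul, zero_add] at this
  exact_mod_cast this

theorem ee_fib {K : Subgroup G} {γ : Ω} (hne : (A p K γ).Nonempty) {P : Sylow p G}
    (hP : (P : Subgroup G) ≤ K) : ee p (P : Subgroup G) (orb K γ) =
      fib p K γ * ee p (P : Subgroup G) (orb K (A p K γ)) := by
  rw [ee_eq, ee_eq, wt_fib _ _ hne hP]

omit [Finite G] hp in
theorem red_of_fib {K : Subgroup G} {γ : Ω} (hne : (A p K γ).Nonempty) (h : fib p K γ = 1) :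
    Red p K (orb K γ) := by
  refine ⟨fun δ hδ => A_nonempty hδ hne, fun δ hδ ε hε e => ?_⟩
  rw [← fib_eq hδ, fib] at h
  exact Finset.card_le_one.1 h.le δ (Finset.mem_filter.2 ⟨self_mem_orb K δ, rfl⟩) ε
    (Finset.mem_filter.2 ⟨by rw [orb_eq hδ]; exact hε, e.symm⟩)

theorem not_Fx_A {K : Subgroup G} (hK : Good p K) {γ : Ω} (hne : (A p K γ).Nonempty)
    (hγ : ¬ Fx K γ) : ¬ Fx K (A p K γ) := fun h =>
  hγ (Fx.mono hK (Fx_gen.2 fun _ hQ => (Fx_A hne hQ).1 (h.mono hQ)))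

/-- Double counting of (point, Sylow subgroup fixing it). -/
theorem dc {K : Subgroup G} {P : Sylow p G} (hP : (P : Subgroup G) ≤ K) (γ : Ω) :
    nf (P : Subgroup G) (orb K γ) * (X p K).ncard = (orb K γ).card * (A p K γ).ncard := by
  have := Fintype.ofFinite (Sylow p G)
  have h := Finset.sum_card_bipartiteAbove_eq_sum_card_bipartiteBelow
    (s := (X p K).toFinset) (t := orb K γ) (r := fun (Q : Sylow p G) δ => Fx (Q : Subgroup G) δ)
  rw [Finset.sum_congr rfl (g := fun _ => nf (P : Subgroup G) (orb K γ)),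
    Finset.sum_congr rfl (s₂ := orb K γ) (g := fun _ => (A p K γ).ncard)] at h
  · simp only [Finset.sum_const, smul_eq_mul] at h
    rw [← h, Set.ncard_eq_toFinset_card', mul_comm]
  · intro δ hδ
    rw [← A_ncard hδ, ← Set.ncard_coe_finset]
    congr 1
    ext Q
    rw [Finset.mem_coe, Finset.mem_bipartiteBelow, Set.mem_toFinset]
    rfl
  · intro Q hQ
    rw [nf_conj (orb_inv K γ) hP (Q := Q) (Set.mem_toFinset.1 hQ)]
    rfl

/-- One cycle only: the action is reduced. -/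
theorem t1_red (hq : ∀ P : Sylow p G, Nat.card P = p) {K : Subgroup G} (hK : Good p K)
    {P : Sylow p G} (hP : (P : Subgroup G) ≤ K) {α : Ω} (hne : (A p K α).Nonempty)
    (hs : ns (P : Subgroup G) (orb K α) = p) : Red p K (orb K α) := by
  refine red_of_fib hne ?_
  have h0 : ¬ Fx K α := by
    intro h
    obtain ⟨δ, hδ, h2⟩ := ns_pos_iff.1 (by rw [hs]; exact hp.out.pos : 0 < ns (P : Subgroup G) (orb K α))
    obtain ⟨g, hg, rfl⟩ := mem_orb.1 hδ
    rw [h g hg] at h2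
    exact h2 (h.mono hP)
  have h1 := le_ns hq hK hP (not_Fx_A hK hne h0)
  have h2 := ns_fib hne hP
  have h3 := fib_pos (p := p) K α
  have h4 := hp.out.pos
  rw [hs] at h2
  by_contra h
  have : 2 * p ≤ fib p K α * ns (P : Subgroup G) (orb K (A p K α)) :=
    Nat.mul_le_mul (by omega) h1
  omega

/-- An invariant set with at most one cycle and no fixed point of `L` is a single orbit. -/
theorem orb_eq_of_ns (hq : ∀ P : Sylow p G, Nat.card P = p) {L : Subgroup G} (hL : Good p L)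
    {P : Sylow p G} (hP : (P : Subgroup G) ≤ L) {O : Finset Ω} (hO : Inv L O)
    (hn : ∀ γ ∈ O, ¬ Fx L γ) (hs : ns (P : Subgroup G) O ≤ p) {β : Ω} (hβ : β ∈ O) :
    orb L β = O := by
  refine Finset.Subset.antisymm (orb_subset hO hβ) fun γ hγ => ?_
  by_contra h
  have h1 := le_ns hq hL hP (hn β hβ)
  have h2 := le_ns hq hL hP (hn γ hγ)
  have h3 := ns_sdiff (P : Subgroup G) (orb_subset hO hβ)
  have h4 := ns_sdiff (P : Subgroup G)
    (orb_subset (hO.sdiff (orb_inv L β)) (Finset.mem_sdiff.2 ⟨hγ, h⟩))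
  have h5 := hp.out.pos
  omega

/-- One cycle: the stabilizer `St K β` is transitive on the remaining points. -/
theorem t1_orb (hq : ∀ P : Sylow p G, Nat.card P = p) {K : Subgroup G}
    {P : Sylow p G} (hP : (P : Subgroup G) ≤ K) {α β γ : Ω} (hr : Red p K (orb K α))
    (hs : ns (P : Subgroup G) (orb K α) = p) (hβ : β ∈ orb K α) (hγ : γ ∈ (orb K α).erase β) :
    orb (St p K β) γ = (orb K α).erase β := by
  obtain ⟨Q, hQ⟩ := hr.1 β hβ
  refine orb_eq_of_ns hq (St_good K β) (le_St.2 hQ)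
    (((orb_inv K α).mono (St_le K β)).erase (St_fx K β)) (fun δ hδ => hr.not_Fx hβ hδ) ?_ hγ
  rw [ns_erase hβ hQ.2, ns_conj (orb_inv K α) hQ.1 hP, hs]

end Cfsg.Lib.SyR
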