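import Cfsg.Agent.Lib.SyR.Red

/-! The weak bound `f < p k` for Sylow subgroups semiregular on their support. -/

set_option autoImplicit false
open Pointwise
open scoped Classical

namespace Cfsg.Lib.SyR

universe u

variable {G : Type u} [Group G] [Finite G] {p : ℕ} [hp : Fact p.Prime]

/-- Sylow subgroups in `K` act semiregularly on their supports in `O`. -/
def SRg (p : ℕ) {Ω : Type u} [MulAction G Ω] (K : Subgroup G) (O : Finset Ω) : Prop :=
  ∀ Q : Sylow p G, (Q : Subgroup G) ≤ K → ∀ x ∈ (Q : Subgroup G), x ≠ 1 → ∀ γ ∈ O, x • γ = γ →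
    Fx (Q : Subgroup G) γ

theorem SRg.mono {Ω : Type u} [MulAction G Ω] {K L : Subgroup G} {O U : Finset Ω} (h : SRg p K O)
    (hL : L ≤ K) (hU : U ⊆ O) : SRg p L U :=
  fun Q hQ x hx h1 γ hγ => h Q (hQ.trans hL) x hx h1 γ (hU hγ)

theorem SRg.dvd {Ω : Type u} [MulAction G Ω] [Fintype Ω] {K : Subgroup G} {O : Finset Ω}
    (h : SRg p K O) {P : Sylow p G} (hP : (P : Subgroup G) ≤ K) (hO : Inv (P : Subgroup G) O) :
    Nat.card P ∣ ns (P : Subgroup G) O := by
  refine dvd_card_of_orb _ (P : Subgroup G) _ (inv_moved hO) fun γ hγ => ?_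
  rw [Finset.mem_filter] at hγ
  have : (MulAction.stabilizer G γ).subgroupOf (P : Subgroup G) = ⊥ := by
    rw [eq_bot_iff]
    intro x hx
    by_contra h1
    exact hγ.2 (h P hP x x.2 (fun e => h1 (Subtype.ext e)) γ hγ.1 hx)
  rw [card_orb, Subgroup.relIndex, this, Subgroup.index_bot]

theorem weak_red {K : Subgroup G}
    (ih : ∀ L < K, ∀ (Ω : Type u) [MulAction G Ω] [Fintype Ω] (P : Sylow p G) (α : Ω),
      Good p L → (P : Subgroup G) ≤ L → SRg p L (orb L α) → ¬ Fx L α →
      Nat.card P * (nf (P : Subgroup G) (orb L α) + 1) ≤ p * ns (P : Subgroup G) (orb L α))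
    {Ω : Type u} [MulAction G Ω] [Fintype Ω] {P : Sylow p G} {α : Ω} (hP : P ∈ A p K α)
    (hr : Red p K (orb K α)) (hsr : SRg p K (orb K α)) (hα : ¬ Fx K α) :
    Nat.card P * (nf (P : Subgroup G) (orb K α) + 1) ≤ p * ns (P : Subgroup G) (orb K α) := by
  have hLK : St p K α < K := lt_of_le_of_ne (St_le K α) fun h => hα (h ▸ St_fx K α)
  have hPL : (P : Subgroup G) ≤ St p K α := le_St.2 hP
  have hαO := self_mem_orb K α
  have hI : Inv (St p K α) ((orb K α).erase α) :=
    ((orb_inv K α).mono (St_le K α)).erase (St_fx K α)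
  have hb : ∀ γ ∈ (orb K α).erase α, (Nat.card P : ℤ) ≤
      ∑ δ ∈ orb (St p K α) γ, wt (-(Nat.card P : ℤ)) p (P : Subgroup G) δ := by
    intro γ hγ
    have := ih _ hLK Ω P γ (St_good K α) hPL
      (hsr.mono (St_le K α) ((orb_subset hI hγ).trans (Finset.erase_subset _ _)))
      (hr.not_Fx hαO hγ)
    rw [sum_wt]
    have h2 : (Nat.card P : ℤ) * (nf (P : Subgroup G) (orb (St p K α) γ) + 1) ≤
      p * ns (P : Subgroup G) (orb (St p K α) γ) := by exact_mod_cast this
    linarith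
  obtain ⟨β, hβ⟩ : ((orb K α).erase α).Nonempty := by
    by_contra h
    refine hα fun x hx => ?_
    by_contra h2
    exact h ⟨x • α, Finset.mem_erase.2 ⟨h2, smul_mem_orb hx α⟩⟩
  have e1 := Finset.sum_sdiff (f := wt (-(Nat.card P : ℤ)) p (P : Subgroup G)) (orb_subset hI hβ)
  have b1 : 0 ≤ ∑ δ ∈ (orb K α).erase α \ orb (St p K α) β,
      wt (-(Nat.card P : ℤ)) p (P : Subgroup G) δ :=
    sum_mem (AddSubmonoid.nonneg ℤ) _ _ _ (hI.sdiff (orb_inv _ β)) fun γ hγ =>
      le_trans (Int.natCast_nonneg _) (hb γ (Finset.mem_sdiff.1 hγ).1)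
  have b2 := hb β hβ
  rw [sum_wt _ _ _ ((orb K α).erase α), ns_erase hαO hP.2] at e1
  have c2 := nf_erase hαO hP.2
  obtain ⟨k, hk⟩ := hsr.dvd hP.1 ((orb_inv K α).mono hP.1)
  have hq0 : 0 < Nat.card P := Nat.card_pos
  have h1 : nf (P : Subgroup G) (orb K α) ≤ p * k := by
    refine Nat.le_of_mul_le_mul_left ?_ hq0
    have : (Nat.card P : ℤ) * (nf (P : Subgroup G) ((orb K α).erase α) + 1) ≤
        p * (Nat.card P * k : ℕ) := by rw [← hk]; linarith
    rw [← c2]
    have h3 : Nat.card P * (nf (P : Subgroup G) ((orb K α).erase α) + 1) ≤ p * (Nat.card P * k) := by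
      exact_mod_cast this
    linarith
  have h2 : nf (P : Subgroup G) (orb K α) ≠ p * k := by
    intro h
    have hs0 : 0 < ns (P : Subgroup G) (orb K α) := by
      have : (0 : ℤ) < p * ns (P : Subgroup G) (orb K α) := by
        have : (0 : ℤ) < Nat.card P := by exact_mod_cast hq0
        have h4 : (0 : ℤ) ≤ Nat.card P * nf (P : Subgroup G) ((orb K α).erase α) := by positivity
        linarith
      by_contra h5
      have h6 : ns (P : Subgroup G) (orb K α) = 0 := by omega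
      rw [h6] at this; simp at this
    obtain ⟨n, hn⟩ := P.isPGroup'.exists_card_eq
    have hn0 : n ≠ 0 := by
      rintro rfl
      obtain ⟨δ, -, hδ⟩ := ns_pos_iff.1 hs0
      have : (P : Subgroup G) = ⊥ := Subgroup.card_eq_one.1 (by simpa using hn)
      exact hδ fun x hx => by rw [this, Subgroup.mem_bot] at hx; rw [hx, one_smul]
    have h4 : p ∣ (orb K α).card := by
      rw [← nf_add_ns (P : Subgroup G), h, hk, hn]
      exact dvd_add (dvd_mul_right _ _) ((dvd_pow_self p hn0).mul_right _)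
    rw [card_orb] at h4
    exact P.not_dvd_index ((h4.trans (Subgroup.relIndex_dvd_of_le_left K hP.2)).trans
      (Subgroup.relIndex_dvd_index_of_le hP.1))
  rw [hk]
  have := Nat.mul_le_mul_left (Nat.card P) (by omega : nf (P : Subgroup G) (orb K α) + 1 ≤ p * k)
  linarith

/-- Weak bound.  Induction on `K` (well-founded `<`), for all `Ω`.  `q = |P|` divides `ns P U` for every
`P`-invariant `U ⊆ O`.  If `f = 0`: `q ≤ s`.  Otherwise first the reduced case: `P` fixes `β`, `L = St K β < K`,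
all `L`-orbits on `O.erase β` are nontrivial, so `q (f - 1 + 1) ≤ p s`, `s = q k`, `f ≤ p k`, and `f = p k` would give
`p ∣ |O| = |K : K_β|`.  In general pass to `orb K (A p K α)` (`SRg` is inherited by `fx_of_fx_A`), where
`f̄ + 1 ≤ p k̄` gives `b f̄ + 1 ≤ p b k̄`. -/
theorem weak (K : Subgroup G) : ∀ (Ω : Type u) [MulAction G Ω] [Fintype Ω] (P : Sylow p G) (α : Ω),
    Good p K → (P : Subgroup G) ≤ K → SRg p K (orb K α) → ¬ Fx K α →
    Nat.card P * (nf (P : Subgroup G) (orb K α) + 1) ≤ p * ns (P : Subgroup G) (orb K α) := by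
  induction K using WellFoundedLT.induction with
  | ind K ih =>
  intro Ω _ _ P α hK hP hsr hα
  have hp1 := hp.out.pos
  obtain ⟨k, hk⟩ := hsr.dvd hP ((orb_inv K α).mono hP)
  by_cases hne : (A p K α).Nonempty
  swap
  · rw [A_nonempty_iff hP] at hne
    have h1 : nf (P : Subgroup G) (orb K α) = 0 := by omega
    have h2 := Nat.le_of_dvd (ns_pos hK hP hα) ⟨k, hk⟩
    rw [h1]
    nlinarith
  obtain ⟨Q, hQ⟩ := hne
  have hc : Nat.card P = Nat.card Q := Nat.card_congr (Sylow.equiv P Q).toEquiv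
  rw [nf_conj (orb_inv K α) hP hQ.1, ns_conj (orb_inv K α) hP hQ.1, hc]
  have hne : (A p K α).Nonempty := ⟨Q, hQ⟩
  have hsr' : SRg p K (orb K (A p K α)) := by
    intro R hR x hx h1 v hv e
    obtain ⟨δ, hδ, rfl⟩ := mem_orb_A.1 hv
    have h2 : Fx (Subgroup.zpowers x) δ :=
      fx_of_fx_A (R.isPGroup'.to_le (Subgroup.zpowers_le.2 hx)) (A_nonempty hδ hne)
        (Fx_iff_le.2 (Subgroup.zpowers_le.2 e))
    exact fx_A_of_fx hR (hsr R hR x hx h1 δ hδ (h2 x (Subgroup.mem_zpowers x)))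
  have h := weak_red ih (P := Q) (by rw [A_A hne]; exact hQ) (red_A hne) hsr' (not_Fx_A hK hne hα)
  rw [nf_fib hne hQ.1, ns_fib hne hQ.1]
  have h1 := fib_pos (p := p) K α
  have h2 := Nat.mul_le_mul_left (fib p K α) h
  nlinarith

end Cfsg.Lib.SyR
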